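import Cfsg.Agent.Lib.L3E.Defs

/-! BAS: towers and their images (plans/DIH8.md) -/

set_option autoImplicit false

namespace CfsgLib.L3E

open Subgroup CfsgLib.Tech CfsgLib.MOrb Cfsg

variable {G : Type*} [Group G] {l : Lv} {φ : ℕ → G}

theorem mul_eq (l : Lv) (x y : ℕ) : mul l x y = mul0 l x y := by rw [mul, frc_eq, frc_eq]

theorem mul_nil (x y : ℕ) : mul [] x y = m5 x y := mul_eq _ _ _

theorem mul_cons (n B c : ℕ) (l : Lv) (x y : ℕ) : mul ((n, B, c) :: l) x y =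
    if n ≤ x then (if n ≤ y then mul l (mul l (x - n) (lk B (y - n))) c else n + mul l (x - n) (lk B y))
    else (if n ≤ y then n + mul l x (y - n) else mul l x y) := by
  simp only [mul_eq]
  change mulE n B c (mul0 l) x y = _
  unfold mulE
  rcases h1 : Nat.ble n x <;> rcases h2 : Nat.ble n y <;>
    simp only [← Bool.not_eq_true, Nat.ble_eq] at h1 h2 <;> simp only [h1, h2, if_true, if_false, frc_eq] <;> rfl

theorem sz_nil : sz [] = 32 := rfl
theorem sz_cons (n B c : ℕ) (l : Lv) : sz ((n, B, c) :: l) = 2 * n := rfl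

theorem Wf.pw (h : Wf l) : sz l = 2 ^ (l.length + 5) := by
  induction l with
  | nil => rfl
  | cons a l ih => rw [sz_cons, h.2.1, ih h.1, List.length_cons]; ring
theorem Wf.le (h : Wf l) : sz l ≤ 2048 := by
  cases l with
  | nil => exact (by norm_num : 32 ≤ 2048)
  | cons a l => have := h.2.2.1; rw [sz_cons]; omega
theorem Wf.lt (h : Wf l) {x y : ℕ} (hx : x < sz l) (hy : y < sz l) : mul l x y < sz l := by
  induction l generalizing x y with
  | nil => rw [mul_nil]; exact (by decide +kernel : ∀ x < 32, ∀ y < 32, m5 x y < 32) x hx y hy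
  | cons a l ih =>
    obtain ⟨n, B, c⟩ := a
    obtain ⟨h1, rfl, -, h4, -, h5, -⟩ := h
    dsimp only at h4 h5
    rw [sz_cons] at hx hy ⊢
    rw [mul_cons]
    split_ifs
    · have := ih h1 (ih h1 (x := x - sz l) (by omega) (h5 (y - sz l) (by omega))) h4; omega
    · have := ih h1 (x := x - sz l) (by omega) (h5 y (by omega)); omega
    · have := ih h1 (x := x) (y := y - sz l) (by omega) (by omega); omega
    · have := ih h1 (x := x) (y := y) (by omega) (by omega); omega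

theorem Wf.mul_zero (h : Wf l) {x : ℕ} (hx : x < sz l) : mul l x 0 = x := by
  induction l generalizing x with
  | nil => rw [mul_nil]; exact (by decide +kernel : ∀ x < 32, m5 x 0 = x) x hx
  | cons a l ih =>
    obtain ⟨n, B, c⟩ := a
    obtain ⟨h1, rfl, -, h4, h5, -, -⟩ := h
    rw [sz_cons] at hx
    rw [mul_cons, if_neg (show ¬ sz l ≤ 0 by omega), if_neg (show ¬ sz l ≤ 0 by omega), h5]
    split_ifs
    · rw [ih h1 (by omega)]; omega
    · exact ih h1 (by omega)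

theorem Wf.zero_mul (h : Wf l) {x : ℕ} (hx : x < sz l) : mul l 0 x = x := by
  induction l generalizing x with
  | nil => rw [mul_nil]; exact (by decide +kernel : ∀ x < 32, m5 0 x = x) x hx
  | cons a l ih =>
    obtain ⟨n, B, c⟩ := a
    obtain ⟨h1, rfl, -, h4, -⟩ := h
    rw [sz_cons] at hx
    rw [mul_cons, if_neg (show ¬ sz l ≤ 0 by omega)]
    split_ifs
    · rw [ih h1 (by omega)]; omega
    · exact ih h1 (by omega)

/-- the prefixes of a tower -/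
theorem Wf.pre (h : Wf l) {i x y : ℕ} (hi : 2 ^ i < sz l) (hx : x < 2 ^ i) (hy : y < 2 ^ i) :
    mul l x y < 2 ^ i ∧ mul l x (y + 2 ^ i) = mul l x y + 2 ^ i := by
  induction l with
  | nil =>
    rw [mul_nil, mul_nil]
    exact (by decide +kernel : ∀ i < 5, ∀ x < 2 ^ i, ∀ y < 2 ^ i, m5 x y < 2 ^ i ∧ m5 x (y + 2 ^ i) = m5 x y + 2 ^ i)
      i ((Nat.pow_lt_pow_iff_right one_lt_two).1 (show _ < 2 ^ 5 from hi)) x hx y hy
  | cons a l ih =>
    obtain ⟨n, B, c⟩ := a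
    obtain ⟨h1, rfl, -⟩ := h
    rw [sz_cons, h1.pw, ← pow_succ', Nat.pow_lt_pow_iff_right one_lt_two, Nat.lt_succ_iff] at hi
    rcases hi.eq_or_lt with e | lt
    · rw [e, ← h1.pw] at hx hy ⊢
      rw [mul_cons, mul_cons, if_neg hx.not_ge, if_neg hx.not_ge, if_neg hy.not_ge, if_pos le_add_self,
        Nat.add_sub_cancel, add_comm]
      exact ⟨h1.lt hx hy, rfl⟩
    · have h2 : 2 ^ (i + 1) ≤ sz l := h1.pw ▸ Nat.pow_le_pow_right two_pos lt
      rw [pow_succ] at h2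
      rw [mul_cons, mul_cons, if_neg (by omega), if_neg (by omega), if_neg (by omega), if_neg (by omega)]
      exact ih h1 (by omega)
theorem Wf.gen (h : Wf l) {i x : ℕ} (hx : x < 2 ^ i) (hi : 2 ^ i < sz l) : mul l x (2 ^ i) = x + 2 ^ i := by
  have := (h.pre hi hx (Nat.two_pow_pos i)).2
  rwa [zero_add, h.mul_zero (hx.trans hi)] at this

theorem Wf.ge (h : Wf l) : 32 ≤ sz l := h.pw ▸ Nat.pow_le_pow_right two_pos (Nat.le_add_left 5 _)
theorem Wf.mul32 (h : Wf l) {x y : ℕ} (hx : x < 32) (hy : y < 32) : mul l x y = m5 x y := by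
  induction l with
  | nil => exact mul_nil x y
  | cons a l ih =>
    obtain ⟨n, B, c⟩ := a
    obtain ⟨h1, rfl, -⟩ := h
    have := h1.ge
    rw [mul_cons, if_neg (by omega), if_neg (by omega), ih h1]

theorem bas_cons : Cons [] 32 rhoT := by
  refine ⟨by decide +kernel, by decide +kernel, fun i x hx hi => ?_⟩
  rw [mul_nil]
  exact (by decide +kernel : ∀ i < 5, ∀ x < 2 ^ i, lk rhoT (x + 2 ^ i) = m5 (lk rhoT x) (lk rhoT (2 ^ i)))
    i ((Nat.pow_lt_pow_iff_right one_lt_two).1 (show _ < 2 ^ 5 from hi)) x hx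
theorem wf_lvT (md : ℕ) : Wf (lvT md) :=
  match md with
  | 0 => trivial
  | 1 => ⟨trivial, rfl, by norm_num, by norm_num, bas_cons⟩
  | _ + 2 => ⟨trivial, rfl, by norm_num, by norm_num, bas_cons⟩

/-- induction over binary expansions -/
theorem pow_ind {P : ℕ → Prop} (h0 : P 0) {k : ℕ} (hs : ∀ i < k, ∀ x < 2 ^ i, P x → P (x + 2 ^ i)) :
    ∀ x < 2 ^ k, P x := by
  induction k with
  | zero => intro x hx; rwa [Nat.lt_one_iff.1 hx]
  | succ k ih =>
    intro x hx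
    have ih' := ih fun i hi => hs i (by omega)
    by_cases h : x < 2 ^ k
    · exact ih' x h
    · have h1 : x - 2 ^ k < 2 ^ k := by rw [pow_succ] at hx; omega
      have := hs k (by omega) _ h1 (ih' _ h1)
      rwa [Nat.sub_add_cancel (by omega)] at this

theorem Wf.pow_lt (h : Wf l) {i : ℕ} : 2 ^ i < sz l ↔ i < l.length + 5 := by
  rw [h.pw, Nat.pow_lt_pow_iff_right one_lt_two]

theorem Rep.one (h : Rep l φ) : φ 0 = 1 := by
  have h0 : 0 < sz l := by have := h.wf.ge; omega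
  have := h.map 0 h0 0 h0
  rw [h.wf.mul_zero h0] at this
  exact mul_eq_left.1 this.symm
theorem Rep.eq_one (h : Rep l φ) {x : ℕ} (hx : x < sz l) : φ x = 1 ↔ x = 0 :=
  ⟨fun e => h.inj x hx 0 (by omega) (e.trans h.one.symm), fun e => e ▸ h.one⟩

theorem Rep.add (h : Rep l φ) {i x : ℕ} (hx : x < 2 ^ i) (hi : 2 ^ i < sz l) : φ (x + 2 ^ i) = φ x * φ (2 ^ i) := by
  rw [← h.map x (hx.trans hi) _ hi, h.wf.gen hx hi]

theorem Rep.mem_of_closed' [Finite G] (h : Rep l φ) {L : Set ℕ} (hL : ∀ x ∈ L, x < sz l) {p : ℕ → Prop}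
    (h0 : p 0) (hc : ∀ x < sz l, p x → ∀ y ∈ L, p (mul l x y)) {g : G} (hg : g ∈ closure (φ '' L)) :
    ∃ x < sz l, p x ∧ φ x = g := by
  rw [← mem_toSubmonoid, closure_toSubmonoid_of_finite] at hg
  induction hg using Submonoid.closure_induction_right with
  | one => exact ⟨0, by have := h.wf.ge; omega, h0, h.one⟩
  | mul_right g _ g' hy ih =>
    obtain ⟨x, hx, px, rfl⟩ := ih
    obtain ⟨y, hy, rfl⟩ := hy
    exact ⟨_, h.wf.lt hx (hL y hy), hc x hx px y hy, h.map x hx y (hL y hy)⟩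
theorem Rep.mem_img [Finite G] (h : Rep l φ) {g : G} : g ∈ img l φ ↔ ∃ x < sz l, φ x = g := by
  refine ⟨fun hg => ?_, fun ⟨x, hx, e⟩ => subset_closure ⟨x, hx, e⟩⟩
  obtain ⟨x, hx, -, e⟩ := h.mem_of_closed' (p := fun _ => True) (fun _ h => h) trivial (fun _ _ _ _ _ => trivial) hg
  exact ⟨x, hx, e⟩
theorem Rep.card_img [Finite G] (h : Rep l φ) : Nat.card (img l φ) = sz l := by
  have : (img l φ : Set G) = φ '' (Finset.range (sz l)) := Set.ext fun g => by simp [h.mem_img]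
  change (img l φ : Set G).ncard = _
  rw [this, Set.InjOn.ncard_image fun x hx y hy => h.inj x (by simpa using hx) y (by simpa using hy),
    Set.ncard_coe_finset, Finset.card_range]
theorem Rep.isPGroup [Finite G] (h : Rep l φ) : IsPGroup 2 (img l φ) := IsPGroup.of_card (h.card_img.trans h.wf.pw)
theorem Rep.gp_le (h : Rep l φ) {L : List ℕ} (hL : ∀ x ∈ L, x < sz l) : gp φ L ≤ img l φ :=
  closure_mono (Set.image_mono hL)

theorem Rep.mem_gp_of_lt (h : Rep l φ) {i : ℕ} (hi : 2 ^ i ≤ sz l) :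
    ∀ x < 2 ^ i, φ x ∈ gp φ ((List.range i).map (2 ^ ·)) :=
  pow_ind (h.one ▸ one_mem _) fun k hk x hx ih => by
    rw [h.add hx ((Nat.pow_lt_pow_right one_lt_two hk).trans_le hi)]
    exact mul_mem ih (subset_closure ⟨_, List.mem_map.2 ⟨k, List.mem_range.2 hk, rfl⟩, rfl⟩)
/-- the generators `1, 2, 4, ..` generate the image -/
theorem Rep.gp_pow (h : Rep l φ) : gp φ ((List.range (l.length + 5)).map (2 ^ ·)) = img l φ := by
  refine le_antisymm (h.gp_le fun x hx => ?_) ((closure_le _).2 ?_)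
  · obtain ⟨k, hk, rfl⟩ := List.mem_map.1 hx
    exact h.wf.pow_lt.2 (List.mem_range.1 hk)
  · rintro _ ⟨x, hx, rfl⟩
    exact h.mem_gp_of_lt h.wf.pw.ge x (h.wf.pw ▸ hx)
/-- prefixes: the codes below `2 ^ i` form the subgroup generated by the first `i` generators -/
theorem Rep.mem_gp_pow [Finite G] (h : Rep l φ) {i : ℕ} (hi : 2 ^ i ≤ sz l) {g : G} :
    g ∈ gp φ ((List.range i).map (2 ^ ·)) ↔ ∃ x < 2 ^ i, φ x = g := by
  refine ⟨fun hg => ?_, fun ⟨x, hx, e⟩ => e ▸ h.mem_gp_of_lt hi x hx⟩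
  have h1 : ∀ y ∈ (List.range i).map (2 ^ ·), y < 2 ^ i := fun y hy => by
    obtain ⟨k, hk, rfl⟩ := List.mem_map.1 hy
    exact Nat.pow_lt_pow_right one_lt_two (List.mem_range.1 hk)
  obtain ⟨x, -, hx, e⟩ := h.mem_of_closed' (p := (· < 2 ^ i)) (fun y hy => (h1 y hy).trans_le hi) (Nat.two_pow_pos i)
    (fun x hx px y hy => hi.eq_or_lt.elim (fun e => e ▸ h.wf.lt hx (e ▸ h1 y hy))
      fun lt => (h.wf.pre lt px (h1 y hy)).1) hg
  exact ⟨x, hx, e⟩
/-- a set of codes containing `0` and closed under right multiplication by `L` contains `gp φ L` -/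
theorem Rep.mem_of_closed [Finite G] (h : Rep l φ) {L : List ℕ} (hL : ∀ x ∈ L, x < sz l) {p : ℕ → Prop}
    (h0 : p 0) (hc : ∀ x < sz l, p x → ∀ y ∈ L, p (mul l x y)) {g : G} (hg : g ∈ gp φ L) :
    ∃ x < sz l, p x ∧ φ x = g := h.mem_of_closed' hL h0 hc hg
/-- the restriction to the lower part of the tower -/
theorem Rep.tail {a : ℕ × ℕ × ℕ} (h : Rep (a :: l) φ) : Rep l φ := by
  obtain ⟨n, B, c⟩ := a
  obtain ⟨h1, rfl, -⟩ := h.wf
  have lt : ∀ x < sz l, x < sz ((sz l, B, c) :: l) := fun x hx => by rw [sz_cons]; omega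
  refine ⟨h1, fun x hx y hy => ?_, fun x hx y hy => h.inj x (lt x hx) y (lt y hy)⟩
  rw [← h.map x (lt x hx) y (lt y hy), mul_cons, if_neg hx.not_ge, if_neg hy.not_ge]
theorem Rep.base (h : Rep l φ) : Rep [] φ := by
  induction l with
  | nil => exact h
  | cons a l ih => exact ih h.tail

/-- a consistent table which is right on the generators is right everywhere -/
theorem Rep.conj_table {l' : Lv} {ψ : ℕ → G} (h : Rep l φ) (h' : Rep l' ψ) {B : ℕ} (hB : Cons l (sz l') B)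
    {g : G} (hg : ∀ i, 2 ^ i < sz l' → g * ψ (2 ^ i) * g⁻¹ = φ (lk B (2 ^ i))) :
    ∀ x < sz l', g * ψ x * g⁻¹ = φ (lk B x) := by
  rw [h'.wf.pw]
  refine pow_ind (by rw [h'.one, hB.1, h.one, mul_one, mul_inv_cancel]) fun i hi x hx ih => ?_
  have h1 := h'.wf.pow_lt.2 hi
  rw [h'.add hx h1, ← conj_mul, ih, hg i h1, hB.2.2 i x hx h1, h.map _ (hB.2.1 x (hx.trans h1)) _ (hB.2.1 _ h1)]

/-- extension of a tower by one element -/
theorem Rep.ext [Finite G] (h : Rep l φ) {B c : ℕ} (hn : sz l ≤ 1024) (hc : c < sz l) (hB : Cons l (sz l) B)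
    {f : G} (hf : f ∉ img l φ) (h2 : f * f = φ c)
    (hg : ∀ i, 2 ^ i < sz l → f * φ (2 ^ i) * f⁻¹ = φ (lk B (2 ^ i))) :
    Rep ((sz l, B, c) :: l) fun x => if x < sz l then φ x else φ (x - sz l) * f := by
  have h1 : ∀ y < sz l, f * φ y = φ (lk B y) * f := fun y hy =>
    mul_inv_eq_iff_eq_mul.1 (h.conj_table h hB hg y hy)
  have h3 : ∀ x < sz l, ∀ y < sz l, φ x ≠ φ y * f := fun x hx y hy e =>
    hf ((mul_mem_cancel_left (h.mem_img.2 ⟨y, hy, rfl⟩)).1 (h.mem_img.2 ⟨x, hx, e⟩))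
  refine ⟨⟨h.wf, rfl, hn, hc, hB⟩, fun x hx y hy => ?_, fun x hx y hy => ?_⟩ <;> rw [sz_cons] at hx hy
  · rw [mul_cons]
    rcases lt_or_ge x (sz l) with a | a <;> rcases lt_or_ge y (sz l) with b | b
    · simp only [if_neg a.not_ge, if_neg b.not_ge, if_pos a, if_pos b, if_pos (h.wf.lt a b), h.map x a y b]
    · simp only [if_neg a.not_ge, if_pos b, if_pos a, if_neg b.not_gt, if_neg (Nat.le_add_right _ _).not_gt,
        Nat.add_sub_cancel_left]
      rw [h.map x a _ (by omega), mul_assoc]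
    · simp only [if_pos a, if_neg b.not_ge, if_pos b, if_neg a.not_gt, if_neg (Nat.le_add_right _ _).not_gt,
        Nat.add_sub_cancel_left]
      rw [h.map _ (by omega) _ (hB.2.1 y b), mul_assoc, mul_assoc, h1 y b]
    · have a' : x - sz l < sz l := by omega
      have b' : y - sz l < sz l := by omega
      have c' := h.wf.lt a' (hB.2.1 _ b')
      simp only [if_pos a, if_pos b, if_neg a.not_gt, if_neg b.not_gt, if_pos (h.wf.lt c' hc)]
      rw [h.map _ c' _ hc, h.map _ a' _ (hB.2.1 _ b'), ← h2, mul_assoc, mul_assoc, ← mul_assoc f, h1 _ b', mul_assoc]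
  · split_ifs with a b b <;> intro e
    · exact h.inj x a y b e
    · exact (h3 x a _ (by omega) e).elim
    · exact (h3 y b _ (by omega) e.symm).elim
    · have := h.inj _ (by omega) _ (by omega) (mul_right_cancel e); omega

/-- the defining relations of a tower for the elements `y i` in place of the generators `2 ^ i` -/
def Rel (l' : Lv) (ψ : ℕ → G) : Prop :=
  ∀ j, 2 ^ j < sz l' → ψ (2 ^ j) * ψ (2 ^ j) = ψ (mul l' (2 ^ j) (2 ^ j)) ∧
    ∀ i < j, ψ (2 ^ j) * ψ (2 ^ i) = ψ (mul l' (2 ^ j) (2 ^ i))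

theorem rel_step {ψ : ℕ → G} {k : ℕ} {m m' : ℕ → ℕ → ℕ} {B : ℕ → ℕ} {c : ℕ}
    (lo : ∀ x < 2 ^ k, ∀ y < 2 ^ k, m x y < 2 ^ k ∧ m' x y = m x y ∧ m' x (y + 2 ^ k) = m x y + 2 ^ k ∧
      m' (x + 2 ^ k) y = m x (B y) + 2 ^ k ∧ m' (x + 2 ^ k) (y + 2 ^ k) = m (m x (B y)) c)
    (hB : ∀ y < 2 ^ k, B y < 2 ^ k ∧ m 0 y = y) (B0 : B 0 = 0) (hc : c < 2 ^ k)
    (Bs : ∀ i < k, ∀ x < 2 ^ i, B (x + 2 ^ i) = m (B x) (B (2 ^ i))) (h0 : ψ 0 = 1)
    (hs : ∀ i ≤ k, ∀ x < 2 ^ i, ψ (x + 2 ^ i) = ψ x * ψ (2 ^ i))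
    (r1 : ψ (2 ^ k) * ψ (2 ^ k) = ψ (m' (2 ^ k) (2 ^ k)))
    (r2 : ∀ i < k, ψ (2 ^ k) * ψ (2 ^ i) = ψ (m' (2 ^ k) (2 ^ i)))
    (ih : ∀ x < 2 ^ k, ∀ y < 2 ^ k, ψ (m x y) = ψ x * ψ y) :
    ∀ x < 2 ^ (k + 1), ∀ y < 2 ^ (k + 1), ψ (m' x y) = ψ x * ψ y := by
  have k0 := Nat.two_pow_pos k
  have h1 : ∀ y < 2 ^ k, ψ (2 ^ k) * ψ y = ψ (B y) * ψ (2 ^ k) := by
    refine pow_ind (by rw [B0, h0, mul_one, one_mul]) fun i hi x hx e => ?_
    have i1 := Nat.pow_lt_pow_right one_lt_two hi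
    have := (lo 0 k0 _ i1).2.2.2.1
    rw [zero_add, (hB _ (hB _ i1).1).2] at this
    rw [hs i hi.le x hx, ← mul_assoc, e, mul_assoc, r2 i hi, this, hs k le_rfl _ (hB _ i1).1, Bs i hi x hx,
      ih _ (hB x (hx.trans i1)).1 _ (hB _ i1).1, mul_assoc]
  have h2 := (lo 0 k0 0 k0).2.2.2.2
  rw [zero_add, B0, (hB 0 k0).2, (hB c hc).2] at h2
  rw [h2] at r1
  have h3 : ∀ x < 2 ^ (k + 1), x < 2 ^ k ∨ ∃ y < 2 ^ k, x = y + 2 ^ k := fun x hx =>
    (lt_or_ge x (2 ^ k)).imp_right fun a => ⟨x - 2 ^ k, by rw [pow_succ] at hx; omega, by omega⟩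
  intro x hx y hy
  rcases h3 x hx with a | ⟨x, a, rfl⟩ <;> rcases h3 y hy with b | ⟨y, b, rfl⟩ <;>
    obtain ⟨e1, e2, e3, e4, e5⟩ := lo x a y b
  · rw [e2, ih x a y b]
  · rw [e3, hs k le_rfl _ e1, hs k le_rfl y b, ih x a y b, mul_assoc]
  · rw [e4, hs k le_rfl _ (lo x a _ (hB y b).1).1, hs k le_rfl x a, ih x a _ (hB y b).1, mul_assoc, mul_assoc, h1 y b]
  · rw [e5, ih _ (lo x a _ (hB y b).1).1 c hc, ih x a _ (hB y b).1, hs k le_rfl x a, hs k le_rfl y b, ← r1, mul_assoc,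
      mul_assoc, ← mul_assoc (ψ (2 ^ k)), h1 y b, mul_assoc]

theorem rel_map {l' : Lv} {ψ : ℕ → G} (h' : Wf l') (h0 : ψ 0 = 1)
    (hs : ∀ i x, x < 2 ^ i → 2 ^ i < sz l' → ψ (x + 2 ^ i) = ψ x * ψ (2 ^ i)) (hr : Rel l' ψ) :
    ∀ x < sz l', ∀ y < sz l', ψ (mul l' x y) = ψ x * ψ y := by
  induction l' with
  | nil =>
    simp only [Rel, mul_nil] at hr ⊢
    suffices ∀ k ≤ 5, ∀ x < 2 ^ k, ∀ y < 2 ^ k, ψ (m5 x y) = ψ x * ψ y from this 5 le_rfl
    intro k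
    induction k with
    | zero =>
      intro _ x hx y hy
      rw [Nat.lt_one_iff.1 hx, Nat.lt_one_iff.1 hy, h0, mul_one]
      exact h0
    | succ k ih =>
      intro hk
      have p : ∀ i ≤ k, 2 ^ i < sz [] := fun i hi => Nat.pow_lt_pow_right one_lt_two (show i < 5 by omega)
      obtain ⟨a1, a2, a3, a4⟩ := (by decide +kernel : ∀ k < 5, (∀ x < 2 ^ k, ∀ y < 2 ^ k, m5 x y < 2 ^ k ∧
        m5 x y = m5 x y ∧ m5 x (y + 2 ^ k) = m5 x y + 2 ^ k ∧
        m5 (x + 2 ^ k) y = m5 x (m5 (2 ^ k) y - 2 ^ k) + 2 ^ k ∧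
        m5 (x + 2 ^ k) (y + 2 ^ k) = m5 (m5 x (m5 (2 ^ k) y - 2 ^ k)) 0) ∧
        (∀ y < 2 ^ k, m5 (2 ^ k) y - 2 ^ k < 2 ^ k ∧ m5 0 y = y) ∧ m5 (2 ^ k) 0 - 2 ^ k = 0 ∧
        ∀ i < k, ∀ x < 2 ^ i, m5 (2 ^ k) (x + 2 ^ i) - 2 ^ k =
          m5 (m5 (2 ^ k) x - 2 ^ k) (m5 (2 ^ k) (2 ^ i) - 2 ^ k)) k hk
      exact rel_step (B := fun y => m5 (2 ^ k) y - 2 ^ k) a1 a2 a3 (Nat.two_pow_pos k) a4 h0
        (fun i hi x hx => hs i x hx (p i hi)) (hr k (p k le_rfl)).1 (hr k (p k le_rfl)).2 (ih (by omega))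
  | cons a l ih =>
    obtain ⟨n, B, c⟩ := a
    obtain ⟨h1, rfl, -, h4, h5, h6, h7⟩ := h'
    have lt : ∀ {x}, x ≤ sz l → x < sz ((sz l, B, c) :: l) := fun hx => by have := h1.ge; rw [sz_cons]; omega
    have lo : ∀ {x y}, x < sz l → y < sz l → mul ((sz l, B, c) :: l) x y = mul l x y := fun hx hy => by
      rw [mul_cons, if_neg hx.not_ge, if_neg hy.not_ge]
    have ih' := ih h1 (fun i x hx hi => hs i x hx (lt hi.le)) fun j hj =>
      ⟨lo hj hj ▸ (hr j (lt hj.le)).1, fun i hi =>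
        lo hj ((Nat.pow_lt_pow_right one_lt_two hi).trans hj) ▸ (hr j (lt hj.le)).2 i hi⟩
    have e := h1.pw
    have r := hr _ (lt e.ge)
    rw [sz_cons, show 2 * sz l = 2 ^ (l.length + 5 + 1) by rw [e]; ring]
    refine rel_step (m := mul l) (B := lk B) (c := c) ?_ ?_ h5 (e ▸ h4) (fun i hi x hx => h7 i x hx (h1.pow_lt.2 hi)) h0
      (fun i hi x hx => hs i x hx (lt (e ▸ Nat.pow_le_pow_right two_pos hi))) r.1 r.2 (e ▸ ih') <;> rw [← e]
    · intro x hx y hy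
      refine ⟨h1.lt hx hy, lo hx hy, ?_, ?_, ?_⟩ <;>
        simp only [mul_cons, hx.not_ge, hy.not_ge, le_add_iff_nonneg_left, zero_le, if_true, if_false,
          Nat.add_sub_cancel] <;> exact add_comm _ _
    · exact fun y hy => ⟨h6 y hy, h1.zero_mul hy⟩

theorem rel_inj {l' : Lv} {ψ : ℕ → G} (h' : Wf l') (h0 : ψ 0 = 1)
    (hm : ∀ x < sz l', ∀ y < sz l', ψ (mul l' x y) = ψ x * ψ y) (h1 : ∀ x < sz l', ψ x = 1 → x = 0) :
    ∀ x < sz l', ∀ y < sz l', ψ x = ψ y → x = y := by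
  suffices ∀ k, 2 ^ k ≤ sz l' → ∀ x < 2 ^ k, ∀ y < 2 ^ k, ψ x = ψ y → x = y from h'.pw ▸ this _ h'.pw.ge
  intro k
  induction k with
  | zero => intro _ x hx y hy _; omega
  | succ k ih =>
    intro hk x hx y hy
    rw [pow_succ] at hk hx hy
    have k0 := Nat.two_pow_pos k
    have k1 : 2 ^ k < sz l' := by omega
    have ih' := ih k1.le
    have h2 : ∀ x < 2 ^ k, ψ (x + 2 ^ k) = ψ x * ψ (2 ^ k) := fun x hx => by
      rw [← hm x (by omega) _ k1, h'.gen hx k1]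
    have h3 : ∀ x < 2 ^ k, ∀ y < 2 ^ k, ψ x ≠ ψ (y + 2 ^ k) := fun x hx y hy e => by
      obtain ⟨u, hu, e'⟩ := (((Set.finite_lt_nat (2 ^ k)).injOn_iff_bijOn_of_mapsTo (f := (mul l' · x))
        fun u hu => (h'.pre k1 hu hx).1).1 fun u hu v hv e' => ih' u hu v hv (mul_right_cancel (b := ψ x) (by
          rw [← hm u (hu.trans k1) x (by omega), ← hm v (hv.trans k1) x (by omega)]
          exact congrArg ψ e'))).surjOn k0
      have h4 := hm u (hu.trans k1) x (by omega)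
      rw [show mul l' u x = 0 from e', e, ← hm u (hu.trans k1) _ (by omega), (h'.pre k1 hu hy).2] at h4
      have := (h'.pre k1 hu hy).1
      have := h1 _ (by omega) (h4.symm.trans h0)
      omega
    intro e
    rcases lt_or_ge x (2 ^ k) with a | a <;> rcases lt_or_ge y (2 ^ k) with b | b
    · exact ih' x a y b e
    · exact (h3 x a (y - 2 ^ k) (by omega) (by rwa [Nat.sub_add_cancel b])).elim
    · exact (h3 y b (x - 2 ^ k) (by omega) (by rw [Nat.sub_add_cancel a, e])).elim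
    · rw [← Nat.sub_add_cancel a, ← Nat.sub_add_cancel b, h2 _ (by omega), h2 _ (by omega)] at e
      have := ih' _ (by omega) _ (by omega) (mul_right_cancel e)
      omega

/-- an embedding `χ` of the tower `l'` into the tower `l` -/
theorem Rep.comp {l' : Lv} (h : Rep l φ) (h' : Wf l') {χ : ℕ} (hχ : Cons l (sz l') χ)
    (hr : Rel l' fun x => φ (lk χ x)) (hi : ∀ x < sz l', lk χ x = 0 → x = 0) :
    Rep l' fun x => φ (lk χ x) := by
  have h0 : φ (lk χ 0) = 1 := by rw [hχ.1, h.one]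
  have hm := rel_map h' (ψ := fun x => φ (lk χ x)) h0 (fun i x hx hi => by
    rw [hχ.2.2 i x hx hi, h.map _ (hχ.2.1 x (hx.trans hi)) _ (hχ.2.1 _ hi)]) hr
  exact ⟨h', hm, rel_inj h' h0 hm fun x hx e => hi x hx ((h.eq_one (hχ.2.1 x hx)).1 e)⟩

end CfsgLib.L3E
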