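import Cfsg.Agent.Lib.L3E.Eng3
import Cfsg.Agent.Lib.L3E.E10

/-! E13: the tables of a tower, checked in pieces (plans/DIH8.md, part II) -/

set_option autoImplicit false

namespace CfsgLib.L3E

open Subgroup CfsgLib.Tech CfsgLib.MOrb Cfsg

universe u

variable {c : Cfg} {s s' : St} {a : Aux} {l : Lv}

theorem Rng.zero {p : ℕ → Bool} : Rng p 0 := fun _ h => absurd h (Nat.not_lt_zero _)

theorem Rng.step {p : ℕ → Bool} {m m' : ℕ} (h : Rng p m) (e : rngB p m m' = true) : Rng p m' := fun x hx => by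
  simp only [rngB, allN_iff, frc_eq, Nat.add_eq, Nat.sub_eq] at e
  rcases lt_or_ge x m with h1 | h1
  · exact h x h1
  · simpa only [Nat.add_sub_cancel' h1] using e (x - m) (by omega)

theorem e13_cnt {n b : ℕ} {p : ℕ → Bool} (h : cntE n p b = true) : ((List.range n).filter p).length = b := by
  induction n generalizing b with
  | zero => exact (Nat.eq_of_beq_eq_true h).symm
  | succ n ih =>
    change cnd (p n) (Nat.rec (motive := fun _ => Bool) false (fun b' _ => cntE n p b') b) (cntE n p b) = true at h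
    rw [cnd_eq] at h
    rw [List.range_succ, List.filter_append, List.length_append]
    split_ifs at h with hp
    · cases b with
      | zero => exact absurd h (by simp)
      | succ b => simp [hp, ih h]
    · simp [hp, ih h]

theorem e13_len (L : List ℕ) (c : ℕ) : lenK L c = L.length + c := by
  induction L generalizing c with
  | nil => exact (Nat.zero_add c).symm
  | cons y L ih =>
    change frc (Nat.succ c) (lenK L) = _
    rw [frc_eq, ih, List.length_cons]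
    omega

theorem e13_inc {n v b : ℕ} {L : List ℕ} (h : incB l n v L b = true) :
    L.Pairwise (· < ·) ∧ ∀ y ∈ L, b ≤ y ∧ y < n ∧ com l y v = true := by
  induction L generalizing b with
  | nil => simp
  | cons y L ih =>
    change an _ (an _ (an _ (incB l n v L (y + 1)))) = true at h
    rw [an_iff, an_iff, an_iff, lt_iff, Nat.ble_eq] at h
    obtain ⟨h1, h2⟩ := ih h.2.2.2
    refine ⟨List.pairwise_cons.2 ⟨fun z hz => (h2 z hz).1, h1⟩, fun z hz => ?_⟩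
    rcases List.mem_cons.1 hz with rfl | hz
    · exact ⟨h.1, h.2.1, h.2.2.1⟩
    · exact ⟨by have := (h2 z hz).1; omega, (h2 z hz).2⟩

theorem tow_of {gs : List ℕ} {ws : List (List ℕ)} {n nc : ℕ} (h0 : tw0B l a gs ws n nc = true)
    (h1 : Rng (elB l a gs) n) (h2 : Rng (clB l a) nc) : Tow.{u} l a := by
  classical
  intro G _ _ φ R
  simp only [tw0B, an_iff, lt_iff, allN_iff, allL_iff, Nat.beq_eq, len_eq, Nat.pow_eq] at h0
  obtain ⟨rfl, rfl, z1, z2, z3, z4, z5, z6⟩ := h0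
  simp only [Rng, elB, clB, an_iff, lt_iff, allL_iff, frc_eq, Nat.beq_eq, cnd_eq] at h1 h2
  have mp : ∀ x < a.n, ∀ y < a.n, mul l x y < a.n ∧ φ (mul l x y) = φ x * φ y := fun x hx y hy =>
    ⟨z1 ▸ R.wf.lt (z1 ▸ hx) (z1 ▸ hy), R.map _ (z1 ▸ hx) _ (z1 ▸ hy)⟩
  have cjj : ∀ p < a.n, ∀ x < a.n, cj l a p x < a.n ∧ φ (cj l a p x) = φ p * φ x * (φ p)⁻¹ := fun p hp x hx => by
    have k1 := mp p hp _ (h1 p hp).1
    have k2 := mp _ (mp p hp x hx).1 _ (h1 p hp).1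
    rw [(h1 p hp).2.1, R.one] at k1
    exact ⟨k2.1, by rw [cj, k2.2, (mp p hp x hx).2, inv_eq_of_mul_eq_one_right k1.2.symm]⟩
  obtain ⟨P, hP⟩ : ∃ P : ℕ → Prop, ∀ p, P p ↔ p < a.n ∧ ∀ x < a.n, ∀ y < a.n, φ p * φ x * (φ p)⁻¹ = φ y →
    lk a.ci y = lk a.ci x := ⟨_, fun _ => Iff.rfl⟩
  have P0 : P 0 := (hP 0).2 ⟨z2 ▸ Nat.two_pow_pos _, fun x hx y hy e => by
    rw [R.inj x (z1 ▸ hx) y (z1 ▸ hy) (by simpa [R.one] using e)]⟩
  have Pm : ∀ p q, P p → P q → P (mul l p q) := fun p q hp hq => by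
    obtain ⟨p1, p2⟩ := (hP p).1 hp
    obtain ⟨q1, q2⟩ := (hP q).1 hq
    refine (hP _).2 ⟨(mp p p1 q q1).1, fun x hx y hy e => (p2 _ (cjj q q1 x hx).1 y hy ?_).trans
      (q2 x hx _ (cjj q q1 x hx).1 (cjj q q1 x hx).2.symm)⟩
    rw [(cjj q q1 x hx).2, ← e, (mp p p1 q q1).2]
    group
  have Pw : ∀ w : List ℕ, (∀ i ∈ w, i < gs.length) → P (ewB l gs w) := fun w hw => by
    induction w with
    | nil => exact P0
    | cons i w ih =>
      refine Pm _ _ ?_ (ih fun j hj => hw j (.tail _ hj))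
      rw [nth_eq, List.getD_eq_getElem _ _ (hw i (.head _))]
      have hg := List.getElem_mem (hw i (.head _))
      refine (hP _).2 ⟨z5 _ hg, fun x hx y hy e => ?_⟩
      rw [← (h1 x hx).2.2.2.2.2 _ hg, R.inj _ (z1 ▸ (cjj _ (z5 _ hg) x hx).1) y (z1 ▸ hy)
        ((cjj _ (z5 _ hg) x hx).2.trans e)]
  have P2 : ∀ e < a.k, P (2 ^ e) := fun e he => (z6 e he).2 ▸ Pw _ (z6 e he).1
  have Pa : ∀ p < a.n, P p := fun p hp => pow_ind P0 (fun i hi x hx ih =>
    R.wf.gen hx (z1 ▸ ((hP _).1 (P2 i hi)).1) ▸ Pm _ _ ih (P2 i hi)) p (z2 ▸ hp)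
  simp only [towB, an_iff, lt_iff, allN_iff, frc_eq, Nat.beq_eq, cnd_eq, e3_cenK, Nat.pow_eq, List.append_nil,
    zero_add]
  refine ⟨z1, z2, z3, z4, fun x hx => ?_, fun i hi => ?_⟩
  · obtain ⟨k1, k2, k3, k4, k5, -⟩ := h1 x hx
    refine ⟨k1, k2, k3, k4, k5, fun e he => ?_⟩
    obtain ⟨k6, k7⟩ := (hP _).1 (P2 e he)
    exact k7 x hx _ (cjj _ k6 x hx).1 (cjj _ k6 x hx).2.symm
  obtain ⟨k1, k2, k3, k4⟩ := h2 i hi
  refine ⟨k1, k2, k3, ?_⟩
  split_ifs at k4 ⊢ with k5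
  · exact k4
  simp only [an_iff, orr_iff, Nat.beq_eq, Nat.mul_eq, e13_len, add_zero, all2_beq] at k4 ⊢
  obtain ⟨k6, k7, k8⟩ := k4
  have c1 := TL2.card_conj (img l φ) (φ (lk a.rp i))
  have c2 : {w | ∃ z ∈ img l φ, z * φ (lk a.rp i) * z⁻¹ = w} =
      φ '' ((List.range a.n).filter fun x => Nat.beq (lk a.ci x) i).toFinset := by
    refine Set.ext fun w => ⟨fun ⟨z, hz, e⟩ => ?_, fun ⟨x, hx, e⟩ => ?_⟩
    · obtain ⟨p, hp, rfl⟩ := R.mem_img.1 hz
      have c := cjj p (z1 ▸ hp) _ k1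
      refine ⟨_, List.mem_toFinset.2 (List.mem_filter.2 ⟨List.mem_range.2 c.1, ?_⟩), c.2.trans e⟩
      rw [Nat.beq_eq, ((hP p).1 (Pa p (z1 ▸ hp))).2 _ k1 _ c.1 c.2.symm, k2]
    · obtain ⟨x1, x2⟩ := List.mem_filter.1 (List.mem_toFinset.1 hx)
      rw [List.mem_range] at x1
      obtain ⟨-, -, -, x3, x4, -⟩ := h1 x x1
      refine ⟨(φ (lk a.cp x))⁻¹, inv_mem (R.mem_img.2 ⟨_, z1 ▸ x3, rfl⟩), ?_⟩
      rw [Nat.eq_of_beq_eq_true x2] at x4
      rw [inv_inv, mul_assoc, ← (mp _ k1 _ x3).2, ← x4, (mp _ x3 x x1).2, inv_mul_cancel_left, e]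
  rw [c2, Set.InjOn.ncard_image fun x hx y hy => R.inj x (z1 ▸ by simp at hx; exact hx.1) y
    (z1 ▸ by simp at hy; exact hy.1), Set.ncard_coe_finset, List.toFinset_card_of_nodup (List.nodup_range.filter _),
    e13_cnt k7, e3_card R (z1 ▸ k1), R.card_img, ← z1] at c1
  have c3 := Nat.eq_of_mul_eq_mul_left (Nat.pos_of_mul_pos_left (k6.symm ▸ z2 ▸ Nat.two_pow_pos a.k))
    (c1.trans (k6.symm.trans (mul_comm _ _)))
  refine ⟨c3, k8.imp_right fun k8 => ?_⟩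
  obtain ⟨i1, i2⟩ := e13_inc k8.1
  refine List.Perm.eq_of_pairwise (le := (· < ·)) (fun x y _ _ h h' => absurd h h'.not_gt)
    (List.pairwise_lt_range.filter _) i1 (List.Perm.symm ((List.subperm_of_subset (i1.imp ne_of_lt)
      fun y hy => List.mem_filter.2 ⟨List.mem_range.2 (i2 y hy).2.1, (i2 y hy).2.2⟩).perm_of_length_le ?_))
  rw [c3, k8.2]

theorem aux_base3 {mt kt : List ℕ} {kx : ℕ} {ms : List (ℕ × Bool)} {ws : List (List (List ℕ))}
    (h : Tow.{u} l a) (hl : s.lv = l) (e : stB c s (a.setM mt kx kt) ms ws = true) :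
    AuxS.{u} c s 0 (a.setM mt kx kt) := fun G _ _ F φ v hy =>
  aux_base2 (h G φ (hl ▸ v.rep)) hl e G F φ v hy

end CfsgLib.L3E
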