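import Cfsg.Agent.Lib.L3E.E1

/-! E2: words, labels, cosets, the search (plans/DIH8.md, part II) -/

set_option autoImplicit false
set_option linter.unusedSectionVars false

namespace CfsgLib.L3E

open Subgroup CfsgLib.Tech CfsgLib.MOrb Cfsg

universe u

variable {G : Type u} [Group G] [Finite G] {md : ℕ} {F : Fr G md} {c : Cfg} {s s' : St} {φ ψ : ℕ → G} {a : Aux} {l l' : Lv}

namespace AuxOk

theorem cj (v : Valid F s φ) (h : AuxOk F s φ a) {p x : ℕ} (hp : p < a.n) (hx : x < a.n) :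
    L3E.cj s.lv a p x < a.n ∧ φ (L3E.cj s.lv a p x) = φ p * φ x * (φ p)⁻¹ := by
  obtain ⟨h1, h2⟩ := h.iv p hp
  rw [h.n] at hp hx h1 ⊢
  exact ⟨v.rep.wf.lt (v.rep.wf.lt hp hx) h1, by
    rw [L3E.cj, v.rep.map _ (v.rep.wf.lt hp hx) _ h1, v.rep.map _ hp _ hx, h2]⟩

theorem apw (v : Valid F s φ) (h : AuxOk F s φ a) (w : List ℕ) : ∃ g : G, ∀ x < a.n, ∀ y,
    L3E.apw s.lv a w (x + 1) = y + 1 → y < a.n ∧ g * φ x * g⁻¹ = φ y := by
  induction w with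
  | nil => exact ⟨1, fun x hx y e => by obtain rfl : x = y := Nat.succ.inj e
                                        exact ⟨hx, by simp⟩⟩
  | cons p w ih =>
    obtain ⟨g, hg⟩ := ih
    have h0 : L3E.apw s.lv a w 0 ≠ 0 → w = [] ∧ False := by cases w <;> exact fun h => (h rfl).elim
    have key : ∃ g' : G, ∀ x < a.n, ∀ y, cnd (lt p a.n) (Nat.succ (L3E.cj s.lv a p x))
        (lk (nth 0 a.mt (p - 4096)) x) = y + 1 → y < a.n ∧ g' * φ x * g'⁻¹ = φ y := by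
      simp only [cnd_eq, lt_iff, nth_eq]
      split_ifs with e
      · exact ⟨φ p, fun x hx y e' => Nat.succ.inj e' ▸ (h.cj v e hx).imp_right Eq.symm⟩
      · by_cases e' : p - 4096 < a.mt.length
        · rw [List.getD_eq_getElem _ _ e']
          exact h.mt _ (List.getElem_mem e')
        · rw [List.getD_eq_default _ _ (not_lt.1 e')]
          exact ⟨1, fun x _ y e => by simp [lk] at e⟩
    obtain ⟨g', hg'⟩ := key
    refine ⟨g * g', fun x hx y e => ?_⟩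
    replace e : L3E.apw s.lv a w (cnd (lt p a.n) (Nat.succ (L3E.cj s.lv a p x))
      (lk (nth 0 a.mt (p - 4096)) x)) = y + 1 := (frc_eq _ _).symm.trans e
    generalize hz : cnd (lt p a.n) (Nat.succ (L3E.cj s.lv a p x)) (lk (nth 0 a.mt (p - 4096)) x) = z at e
    cases z with
    | zero => exact (h0 (by omega)).2.elim
    | succ z =>
      obtain ⟨h1, h2⟩ := hg' x hx z hz
      exact ⟨(hg z h1 y e).1, by rw [← (hg z h1 y e).2, ← h2]; group⟩

theorem apk (v : Valid F s φ) (h : AuxOk F s φ a) (w : List ℕ) : ∃ g : G, (∀ x < a.n, ∀ y,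
    L3E.apw s.lv a w (x + 1) = y + 1 → y < a.n ∧ g * φ x * g⁻¹ = φ y) ∧ ∀ x < a.n, ∀ k : ℕ → Bool,
      L3E.apk s.lv a w x k = true → ∃ y < a.n, g * φ x * g⁻¹ = φ y ∧ k y = true := by
  obtain ⟨g, hg⟩ := h.apw v w
  refine ⟨g, hg, fun x hx k e => ?_⟩
  unfold L3E.apk at e
  generalize hz : L3E.apw s.lv a w (Nat.succ x) = z at e
  cases z with
  | zero => exact absurd e Bool.false_ne_true
  | succ y => exact ⟨y, (hg x hx y hz).1, (hg x hx y hz).2, e⟩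

theorem kap (v : Valid F s φ) (h : AuxOk F s φ a) {d y k : ℕ} (hd : d < a.n) (hy : y < a.n)
    (e : L3E.kap s.lv a d y = k + 1) : F.Kp (φ d) (φ y) k := by
  unfold L3E.kap at e
  generalize hz : lk a.kx (lk a.ci d) = z at e
  cases z with
  | zero => exact absurd e (Nat.succ_ne_zero k).symm
  | succ j =>
    obtain ⟨h1, h2, h3⟩ := h.cls d hd
    have := Fr.Kp.conj F (h.kt _ h1 j hz _ (h.cj v h2 hy).1 k e) (φ (lk a.cp d))⁻¹
    rw [(h.cj v h2 hy).2, ← h3] at this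
    simpa [mul_assoc] using this

theorem isConj_rp (h : AuxOk F s φ a) {x : ℕ} (hx : x < a.n) : IsConj (φ x) (φ (lk a.rp (lk a.ci x))) := isConj_iff.2 ⟨_, (h.cls x hx).2.2⟩

theorem orderOf_eq {x y : G} (h : IsConj x y) : orderOf x = orderOf y := by
  obtain ⟨g, rfl⟩ := isConj_iff.1 h
  exact ((MulAut.conj g).orderOf_eq x).symm

theorem nfT (h : AuxOk F s φ a) {i j : ℕ} (hi : i < a.nc) (hj : j < a.nc) (e : L3E.nfT a i j = true) :
    ¬ IsConj (φ (lk a.rp i)) (φ (lk a.rp j)) := by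
  intro hc
  simp only [L3E.nfT, orr_iff, ne_iff, Nat.beq_eq] at e
  rcases e with e | e | e | e
  · have := orderOf_eq hc
    rw [(h.rp i hi).2.2, (h.rp j hj).2.2] at this
    exact e (Nat.pow_right_injective le_rfl this)
  · rcases (Nat.prime_two.eq_one_or_self_of_dvd _ ⟨_, e.symm⟩ : lk a.ds i = 1 ∨ _) with e1 | e1 <;>
      change lk a.ds i * lk a.ds j = 2 at e <;> rw [e1] at e
    exacts [(h.ds i hi).1 e1 (((h.ds j hj).2 (by omega)).trans hc.symm),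
      (h.ds j hj).1 (by omega) (((h.ds i hi).2 e1).trans hc)]
  · exact h.nf i hi j hj e hc
  · exact e (h.lam _ (h.rp i hi).1 _ (h.rp j hj).1 hc)

theorem neT (v : Valid F s φ) (h : AuxOk F s φ a) {i j : ℕ} (hi : i < a.nc) (hj : j < a.nc)
    (e : L3E.neT a i j = true) : ¬ Emb a.n φ (lk a.rp i) (lk a.rp j) := by
  intro he
  simp only [L3E.neT, orr_iff, an_iff, ne_iff, lt_iff] at e
  rcases e with e | e | ⟨e1, e2⟩
  · exact h.nfT hi hj e (isConj_iff.2 (he.imp fun _ e => e.1))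
  · exact h.ne i hi j hj e he
  obtain ⟨g, h1, h2⟩ := he
  rw [h.cn i hi (by omega), h.cn j hj e1, ← card_cj g (_ ⊓ centralizer {φ (lk a.rp i)})] at e2
  refine e2.not_ge (card_le_of_le ?_)
  rw [cj_inf, cj_centralizer_singleton, h1, ← h1, ← cj_centralizer_singleton, ← cj_inf]
  refine le_inf (cj_le_iff.2 fun x hx => ?_) (cj_mono g inf_le_right)
  obtain ⟨r, hr, rfl⟩ := v.rep.mem_img.1 hx.1
  obtain ⟨r', hr', e⟩ := h2 r (h.n ▸ hr) (mem_centralizer_singleton_iff.1 hx.2)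
  exact v.rep.mem_img.2 ⟨r', h.n ▸ hr', e.symm⟩

theorem clash (h : AuxOk F s φ a) {x y : ℕ} (hx : x < a.n) (hy : y < a.n) (e : L3E.clash a x y = true) :
    ¬ IsConj (φ x) (φ y) := by
  exact fun hc => h.nfT (h.cls x hx).1 (h.cls y hy).1 e (((h.isConj_rp hx).symm.trans hc).trans (h.isConj_rp hy))

theorem e2_ord (md : ℕ) : ∀ y < sz (lvT md), (fun e => e ≤ 3 ∧ (y = 0 ↔ e = 0) ∧ (mul (lvT md) y y = 0 ↔ e ≤ 1) ∧
    (mul (lvT md) (mul (lvT md) y y) (mul (lvT md) y y) = 0 ↔ e ≤ 2))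
      (Nat.land (Nat.shiftRight (lk (kT md) y) 3) 3) := by
  match md with
  | 0 => decide +kernel
  | 1 => decide +kernel
  | _ + 2 => change ∀ y < sz (lvT 2), (fun e => e ≤ 3 ∧ (y = 0 ↔ e = 0) ∧ (mul (lvT 2) y y = 0 ↔ e ≤ 1) ∧
                (mul (lvT 2) (mul (lvT 2) y y) (mul (lvT 2) y y) = 0 ↔ e ≤ 2))
                  (Nat.land (Nat.shiftRight (lk (kT 2) y) 3) 3)
             decide +kernel

theorem clashT {F : Cf G c} (h : AuxOk F.toFr s φ a) {x y : ℕ} (hx : x < a.n) (hy : y < sz (lvT c.md))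
    (e : L3E.clashT c a x y = true) : ¬ IsConj (φ x) (F.j y) := by
  intro hc
  replace hc := (h.isConj_rp hx).symm.trans hc
  have hi := (h.cls x hx).1
  simp only [L3E.clashT, frc_eq, orr_iff, ne_iff, Nat.beq_eq, cnd_eq, tb_eq] at e
  rcases e with e | e
  · have ho := (orderOf_eq hc).symm.trans (h.rp _ hi).2.2
    have k : ∀ k, F.j y ^ 2 ^ k = 1 ↔ lk a.od (lk a.ci x) ≤ k := fun k => by
      rw [← orderOf_dvd_iff_pow_eq_one, ho, Nat.pow_dvd_pow_iff_le_right one_lt_two]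
    have h2 := F.rep.wf.lt hy hy
    obtain ⟨k0, k1, k2, k3⟩ := e2_ord c.md y hy
    rw [← F.rep.eq_one hy, ← pow_one (F.j y), ← pow_zero 2, k] at k1
    rw [← F.rep.eq_one h2, F.rep.map y hy y hy, ← sq, ← pow_one 2, k] at k2
    rw [← F.rep.eq_one (F.rep.wf.lt h2 h2), F.rep.map _ h2 _ h2, F.rep.map y hy y hy, ← sq, ← sq, ← pow_mul, ← sq, k] at k3
    exact e (show min 3 _ = _ by omega)
  · split_ifs at e with e1
    exacts [(h.ds _ hi).1 e (((F.pat y hy).2 e1).trans hc.symm), e1 ((F.pat y hy).1 (((h.ds _ hi).2 e).trans hc))]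

theorem cos (v : Valid F s φ) (h : AuxOk F s φ a) {x z : ℕ} (hx : x < a.n) (hz : z < a.n) {p : ℕ → Bool}
    (e : L3E.cos s.lv a x z p = true) {y : ℕ} (hy : y < a.n) (hc : φ y * φ x * (φ y)⁻¹ = φ z) : p y = true := by
  simp only [L3E.cos, frc_eq, orr_iff, an_iff, ne_iff, allL_iff] at e
  have e1 := h.cc x hx z hz y hy hc
  obtain ⟨h1, h2⟩ := e.resolve_left (not_not.2 e1)
  obtain ⟨x1, x2, x3⟩ := h.cls x hx
  obtain ⟨-, z2, z3⟩ := h.cls z hz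
  obtain ⟨x4, x5⟩ := h.iv _ x2
  obtain ⟨z4, z5⟩ := h.iv _ z2
  have m : ∀ {x y}, x < a.n → y < a.n → mul s.lv x y < a.n ∧ φ (mul s.lv x y) = φ x * φ y := fun hx hy => by
    rw [h.n] at hx hy ⊢; exact ⟨v.rep.wf.lt hx hy, v.rep.map _ hx _ hy⟩
  have m1 := m (m z2 hy).1 x4
  rw [(m z2 hy).2, x5] at m1
  have := h2 _ ((h.cl _ x1 h1 _).2 ⟨m1.1, mul_inv_eq_iff_eq_mul.1 (by
    rw [m1.2]; nth_rewrite 2 [e1]; rw [← x3, ← z3, ← hc]; group)⟩)
  have m2 := m (m z4 m1.1).1 x2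
  exact v.rep.inj _ (h.n ▸ m2.1) y (h.n ▸ hy) (by rw [m2.2, (m z4 m1.1).2, m1.2, z5]; group) ▸ this

end AuxOk

theorem lvB_cons {e : Lvl} {lv : List Lvl} {gs : List ℕ} : lvB l a (e :: lv) gs = true ↔
    e.g < a.n ∧ mul l e.g e.g = ev (mul l) gs e.sq ∧
      (∀ q ∈ e.cj, q.1 < gs.length ∧ mul l e.g (gs.getD q.1 0) = mul l (ev (mul l) gs q.2) e.g) ∧
      (∀ q ∈ e.ts, q.2.1 = ev (mul l) (gs ++ [e.g]) q.1 ∧ (q.2.2.1 = 0 ∨
        (q.2.2.2 ≠ 0 ∧ kap l a q.2.1 (ev (mul l) (gs ++ [e.g]) q.2.2.1) = q.2.2.2))) ∧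
      lvB l a lv (gs ++ [e.g]) = true := by
  change an _ (an _ (an _ (mapK id _ fun gs' => an _ (lvB l a lv gs')))) = true ↔ _
  simp only [an_iff, orr_iff, ne_iff, lt_iff, allL_iff, mapK_eq, List.map_id, snoc_eq, nth_eq, len_eq, Nat.beq_eq]

theorem tgK_eq (m : ℕ → ℕ → ℕ) (ys : List ℕ) (L : List (ℕ × ℕ)) (k : List (ℕ × ℕ) → Bool) :
    tgK m ys L k = k (L.map fun e => (ys.getD e.1 0, ev m ys e.2)) := by
  induction L generalizing k with
  | nil => rfl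
  | cons e L ih =>
    change frc _ (fun x => frc _ fun z => tgK m ys L fun t => k ((x, z) :: t)) = _
    rw [frc_eq, frc_eq, ih, nth_eq, List.map_cons]

theorem dfs_cons {m : ℕ → ℕ → ℕ} {cs : ℕ → ℕ → (ℕ → Bool) → Bool} {L : List ℕ} {c1 : ℕ → ℕ → Bool} {k2 : ℕ → ℕ → ℕ}
    {leaf : List ℕ → Bool} {e : Lvl} {lv : List Lvl} {ys : List ℕ} (hd : dfs m cs L c1 k2 leaf (e :: lv) ys = true)
    {y : ℕ} (h1 : e.lst = true → y ∈ L) (h2 : ∀ q ∈ e.cj, ∀ p, cs (ys.getD q.1 0) (ev m ys q.2) p = true → p y = true)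
    (h3 : e.msk ≠ 0 → tb e.msk y = true) (h4 : m y y = ev m ys e.sq)
    (h5 : ∀ q ∈ e.cj, m y (ys.getD q.1 0) = m (ev m ys q.2) y) :
    (∃ q ∈ e.ts, if q.2.2.1 = 0 then c1 q.2.1 (ev m (ys ++ [y]) q.1) = true else
      k2 (ev m (ys ++ [y]) q.1) (ev m (ys ++ [y]) q.2.2.1) ≠ 0 ∧
        k2 (ev m (ys ++ [y]) q.1) (ev m (ys ++ [y]) q.2.2.1) ≠ q.2.2.2) ∨
      dfs m cs L c1 k2 leaf lv (ys ++ [y]) = true := by
  have key : ∀ p : ℕ → Bool, cnd e.lst (allL L p) (List.rec (motive := fun _ => Bool) false (fun e _ _ => cs e.1 e.2 p)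
      (e.cj.map fun e => (ys.getD e.1 0, ev m ys e.2))) = true → p y = true := fun p hp => by
    rw [cnd_eq] at hp
    split_ifs at hp with e1
    · exact allL_iff.1 hp y (h1 e1)
    · generalize e.cj = J at h2 hp
      cases J with
      | nil => exact absurd hp Bool.false_ne_true
      | cons q J => exact h2 q List.mem_cons_self p hp
  change (frc (ev m ys e.sq) fun sq => tgK m ys e.cj fun tg =>
      (fun p : ℕ → Bool => cnd e.lst (allL L p)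
        (List.rec (motive := fun _ => Bool) false (fun e _ _ => cs e.1 e.2 p) tg)) fun y =>
      orr (an (ne e.msk 0) (ne (Nat.land (Nat.shiftRight e.msk y) 1) 1)) <| orr (ne (m y y) sq) <|
      orr (anyL tg fun e => ne (m y e.1) (m e.2 y)) <| mapK id (snoc ys y) fun ys' =>
      orr (anyL e.ts fun e => frc (ev m ys' e.1) fun x => cnd (Nat.beq e.2.2.1 0) (c1 e.2.1 x)
        (frc (k2 x (ev m ys' e.2.2.1)) fun k => an (ne k 0) (ne k e.2.2.2))) (dfs m cs L c1 k2 leaf lv ys')) = true at hd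
  rw [frc_eq, tgK_eq] at hd
  have := key _ hd
  simp only [an_iff, orr_iff, ne_iff, anyL_iff, mapK_eq, List.map_id, snoc_eq, frc_eq, cnd_eq, Nat.beq_eq] at this
  rcases this with ⟨k1, k2⟩ | k | ⟨_, k1, k2⟩ | ⟨q, k1, k2⟩ | k
  · exact absurd (Nat.eq_of_beq_eq_true (h3 k1)) k2
  · exact absurd h4 k
  · obtain ⟨q, hq, rfl⟩ := List.mem_map.1 k1
    exact absurd (h5 q hq) k2
  · refine Or.inl ⟨q, k1, ?_⟩
    split_ifs at k2 ⊢
    exacts [k2, by simpa only [an_iff, ne_iff] using k2]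
  · exact Or.inr k

theorem dfs_sound (v : Valid F s φ) (h : AuxOk F s φ a) (h' : Rep l' ψ) {cs : ℕ → ℕ → (ℕ → Bool) → Bool} {L : List ℕ}
    {c1 : ℕ → ℕ → Bool} {k2 : ℕ → ℕ → ℕ} {leaf : List ℕ → Bool}
    (hcs : ∀ x < sz l', ∀ z < sz l', ∀ p, cs x z p = true → ∀ y < sz l', ψ y * ψ x * (ψ y)⁻¹ = ψ z → p y = true)
    (h1 : ∀ x < a.n, ∀ y < sz l', c1 x y = true → ¬ IsConj (φ x) (ψ y))
    (h2 : ∀ d < sz l', ∀ y < sz l', ∀ k, k2 d y = k + 1 → F.Kp (ψ d) (ψ y) k) {g : G} {lv : List Lvl}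
    (hl : ∀ e ∈ lv, ∃ y < sz l', g * φ e.g * g⁻¹ = ψ y ∧ (e.lst = true → y ∈ L) ∧ (e.msk ≠ 0 → tb e.msk y = true))
    {gs ys : List ℕ} (hg : ∀ x ∈ gs, x < a.n) (hy : ∀ y ∈ ys, y < sz l') (hc : CJ φ ψ g gs ys)
    (hb : lvB s.lv a lv gs = true) (hd : dfs (mul l') cs L c1 k2 leaf lv ys = true) :
    ∃ zs, (∀ z ∈ zs, z < sz l') ∧ CJ φ ψ g (gs ++ lv.map Lvl.g) zs ∧ leaf zs = true := by
  induction lv generalizing gs ys with
  | nil => exact ⟨ys, hy, by simpa using hc, hd⟩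
  | cons e lv ih =>
    obtain ⟨y, y1, y2, y3, y4⟩ := hl e List.mem_cons_self
    obtain ⟨b1, b2, b3, b4, b5⟩ := lvB_cons.1 hb
    have hg' : ∀ x ∈ gs ++ [e.g], x < a.n := List.forall_mem_append.2 ⟨hg, List.forall_mem_singleton.2 b1⟩
    have hy' : ∀ x ∈ ys ++ [y], x < sz l' := List.forall_mem_append.2 ⟨hy, List.forall_mem_singleton.2 y1⟩
    have hc' : CJ φ ψ g (gs ++ [e.g]) (ys ++ [y]) := List.rel_append hc (.cons y2 .nil)
    have ev1 := hc.ev v.rep h' (h.n ▸ hg) hy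
    have ev2 := hc'.ev v.rep h' (h.n ▸ hg') hy'
    have lt2 : ∀ b, ev (mul s.lv) (gs ++ [e.g]) b < a.n := fun b => h.n ▸ ev_lt v.rep.wf (h.n ▸ hg') b
    rw [h.n] at b1 hg
    have rel : ∀ q ∈ e.cj, ys.getD q.1 0 < sz l' ∧ ψ y * ψ (ys.getD q.1 0) = ψ (ev (mul l') ys q.2) * ψ y :=
      fun q hq => by
        obtain ⟨q1, q2⟩ := b3 q hq
        have q3 : q.1 < ys.length := hc.length_eq ▸ q1
        rw [List.getD_eq_getElem _ _ q1] at q2
        have q4 : g * φ gs[q.1] * g⁻¹ = ψ ys[q.1] := (List.forall₂_iff_get.1 hc).2 _ q1 q3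
        rw [List.getD_eq_getElem _ _ q3, ← y2, ← ev1, ← q4, conj_mul, conj_mul,
          ← v.rep.map _ (ev_lt v.rep.wf hg _) _ b1, ← q2, v.rep.map _ b1 _ (hg _ (List.getElem_mem q1))]
        exact ⟨hy _ (List.getElem_mem q3), rfl⟩
    rcases dfs_cons hd y3 (fun q hq p hp => hcs _ (rel q hq).1 _ (ev_lt h'.wf hy _) p hp y y1
      (mul_inv_eq_iff_eq_mul.2 (rel q hq).2)) y4 (h'.inj _ (h'.wf.lt y1 y1) _ (ev_lt h'.wf hy _) (by
        rw [h'.map y y1 y y1, ← y2, ← ev1, ← b2, v.rep.map _ b1 _ b1, conj_mul])) (fun q hq =>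
          h'.inj _ (h'.wf.lt y1 (rel q hq).1) _ (h'.wf.lt (ev_lt h'.wf hy _) y1) (by
            rw [h'.map _ y1 _ (rel q hq).1, h'.map _ (ev_lt h'.wf hy _) _ y1, (rel q hq).2])) with ⟨q, q1, q2⟩ | k
    · obtain ⟨q3, q4⟩ := b4 q q1
      rw [q3] at q2 q4
      split_ifs at q2 with e1
      · exact absurd (isConj_iff.2 ⟨g, ev2 _⟩) (h1 _ (lt2 _) _ (ev_lt h'.wf hy' _) q2)
      · obtain ⟨q5, q6⟩ := q4.resolve_left e1
        have k1 := Fr.Kp.conj F (h.kap v (lt2 _) (lt2 _) (q6.trans (Nat.succ_pred_eq_of_ne_zero q5).symm)) g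
        rw [ev2, ev2] at k1
        have := Fr.Kp.uniq F k1 (h2 _ (ev_lt h'.wf hy' _) _ (ev_lt h'.wf hy' _) _
          (Nat.succ_pred_eq_of_ne_zero q2.1).symm)
        exact absurd (Nat.pred_inj (Nat.pos_of_ne_zero q2.1) (Nat.pos_of_ne_zero q5) this.symm) q2.2
    · simpa only [List.map_cons, List.append_assoc, List.singleton_append] using
        ih (fun e he => hl e (List.mem_cons_of_mem _ he)) hg' hy' hc' b5 k

theorem dfsP_sound (v : Valid F s φ) (h : AuxOk F s φ a) {L : List ℕ} {leaf : List ℕ → Bool} {g : G} {lv : List Lvl}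
    (hl : ∀ e ∈ lv, ∃ y < a.n, g * φ e.g * g⁻¹ = φ y ∧ (e.lst = true → y ∈ L) ∧ (e.msk ≠ 0 → tb e.msk y = true))
    {gs ys : List ℕ} (hg : ∀ x ∈ gs, x < a.n) (hy : ∀ y ∈ ys, y < a.n) (hc : CJ φ φ g gs ys)
    (hb : lvB s.lv a lv gs = true) (hd : dfsP s.lv a L leaf lv ys = true) :
    ∃ zs, (∀ z ∈ zs, z < a.n) ∧ CJ φ φ g (gs ++ lv.map Lvl.g) zs ∧ leaf zs = true := by
  rw [h.n] at hl hy ⊢
  exact dfs_sound v h v.rep (fun x hx z hz p e y hy hc => h.cos v (h.n ▸ hx) (h.n ▸ hz) e (h.n ▸ hy) hc)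
    (fun x hx y hy e => h.clash hx (h.n ▸ hy) e) (fun d hd y hy k e => h.kap v (h.n ▸ hd) (h.n ▸ hy) e) hl hg hy hc hb hd

end CfsgLib.L3E
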