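import Cfsg.Agent.Lib.L3E.E2

/-! E3: the basic tables (plans/DIH8.md, part II) -/

set_option autoImplicit false

namespace CfsgLib.L3E

open Subgroup CfsgLib.Tech CfsgLib.MOrb Cfsg

universe u

variable {G : Type u} [Group G] [Finite G] {md : ℕ} {F : Fr G md} {c : Cfg} {s s' : St} {φ ψ : ℕ → G} {a : Aux} {l l' : Lv}

theorem root_valid (F : Fr G md) (h : md ≤ 2) : Valid F (root md) F.j := by
  refine ⟨F.rep.base, fun _ _ => rfl, fun m hm => ?_, fun e => (e rfl).elim⟩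
  have s : ∀ a b, a < 16 → lk sgT a = b → F.σ * F.j a * F.σ⁻¹ = F.j b := fun a b h e => e ▸ F.hσ a h
  have t : ∀ a b, a < 32 → b < 32 → lk taT a = b → F.τ * F.j a * F.τ⁻¹ = F.j b := fun a b h h' e =>
    e ▸ F.hτ a h (e ▸ h')
  rcases hm with _ | ⟨_, _ | ⟨_, hm⟩⟩
  · exact ⟨F.σ, .cons (s _ _ (by decide) (by decide)) (.cons (s _ _ (by decide) (by decide))
      (.cons (s _ _ (by decide) (by decide)) (.cons (s _ _ (by decide) (by decide)) .nil)))⟩
  · exact ⟨F.τ, .cons (t _ _ (by decide) (by decide) (by decide)) (.cons (t _ _ (by decide) (by decide) (by decide))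
      (.cons (t _ _ (by decide) (by decide) (by decide)) (.cons (t _ _ (by decide) (by decide) (by decide)) .nil)))⟩
  · have k : md ≠ 0 → ∀ e ∈ [(1, 1), (2, 2), (4, 6), (8, 16), (16, 8)], F.j 32 * F.j e.1 * (F.j 32)⁻¹ = F.j e.2 := by
      intro h0 e he
      have : 32 < sz (lvT md) ∧ e.1 < sz (lvT md) ∧ e.2 < sz (lvT md) ∧ mul (lvT md) 32 e.1 = mul (lvT md) e.2 32 := by
        clear s t hm F
        revert e
        interval_cases md
        · exact (h0 rfl).elim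
        · decide +kernel
        · decide +kernel
      exact F.conj_of this.1 this.2.1 this.2.2.1 this.2.2.2
    cases md with
    | zero => cases hm
    | succ md =>
      have k := k (Nat.succ_ne_zero _)
      obtain rfl := List.mem_singleton.1 hm
      exact ⟨F.j 32, .cons (k (1, 1) (by simp)) (.cons (k (2, 2) (by simp)) (.cons (k (4, 6) (by simp))
        (.cons (k (8, 16) (by simp)) (.cons (k (16, 8) (by simp)) .nil))))⟩

theorem e3_lk0 (i : ℕ) : lk 0 i = 0 := by simp [lk]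

omit [Finite G] in
theorem e3_ord (h : Rep l φ) (e : ℕ) : ∀ x < sz l, ordB l e x = true → orderOf (φ x) = 2 ^ e := by
  induction e with
  | zero =>
    intro x _ hx
    rw [show x = 0 from Nat.eq_of_beq_eq_true hx, h.one, orderOf_one, pow_zero]
  | succ e ih =>
    intro x hx h1
    have h2 : an (ne x 0) (frc (mul l x x) (ordB l e)) = true := h1
    rw [an_iff, ne_iff, frc_eq] at h2
    have h3 := ih _ (h.wf.lt hx hx) h2.2
    rw [h.map x hx x hx, ← pow_two] at h3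
    refine orderOf_eq_prime_pow (fun h4 => ?_) (by rw [pow_succ', pow_mul, ← h3, pow_orderOf_eq_one])
    cases e with
    | zero => exact h2.1 ((h.eq_one hx).1 (by simpa using h4))
    | succ e =>
      rw [pow_succ', pow_mul, ← orderOf_dvd_iff_pow_eq_one, h3, Nat.pow_dvd_pow_iff_le_right one_lt_two] at h4
      omega

theorem e3_cenK (v n : ℕ) : ∀ (L : List ℕ) (c : ℕ) (k : List ℕ → ℕ → Bool), cenK l v n L c k =
    k ((List.range n).filter (fun y => com l y v) ++ L) (c + ((List.range n).filter fun y => com l y v).length) := by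
  induction n with
  | zero => intro L c k; rfl
  | succ n ih =>
    intro L c k
    change cnd (com l n v) (frc (Nat.succ c) fun c => cenK l v n (n :: L) c k) (cenK l v n L c k) = _
    rw [frc_eq, ih, ih, List.range_succ, List.filter_append, cnd_eq]
    split_ifs with h
    · simp [h, Nat.succ_eq_add_one, add_assoc, add_comm 1]
    · simp [h]

theorem e3_card (h : Rep l φ) {v : ℕ} (hv : v < sz l) :
    Nat.card ↥(img l φ ⊓ centralizer {φ v}) = ((List.range (sz l)).filter fun y => com l y v).length := by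
  classical
  rw [← List.toFinset_card_of_nodup (List.nodup_range.filter _), ← Finset.card_image_of_injOn (f := φ),
    ← Nat.card_eq_finsetCard]
  · refine Nat.card_congr (Equiv.subtypeEquivRight fun g => ?_)
    simp only [mem_inf, h.mem_img, mem_centralizer_singleton_iff, Finset.mem_image, List.mem_toFinset, List.mem_filter,
      List.mem_range]
    exact ⟨fun ⟨⟨x, h1, h2⟩, h3⟩ => ⟨x, ⟨h1, (h.com_iff h1 hv).2 (h2 ▸ h3)⟩, h2⟩,
      fun ⟨x, ⟨h1, h3⟩, h2⟩ => ⟨⟨x, h1, h2⟩, h2 ▸ (h.com_iff h1 hv).1 h3⟩⟩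
  · intro x hx y hy
    simp only [List.coe_toFinset, List.mem_filter, List.mem_range, Set.mem_ofPred_eq] at hx hy
    exact h.inj x hx.1 y hy.1

theorem e3_kb (v : Valid F s φ) (h : AuxOk F s φ a) {y k : ℕ} (hy : y < a.n) (e : kb md s a y = k + 1) :
    F.Kp (F.j 1) (φ y) k := by
  simp only [kb, cnd_eq, lt_iff, frc_eq, Nat.beq_eq] at e
  split_ifs at e with h1 h2 h3
  · rw [v.base y h1, ← Nat.succ.inj e]
    exact Fr.Kp.base F (Fr.lt h1)
  · obtain ⟨h4, h5, c, h6, h7⟩ := v.tm h2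
    have h8 := h.iv _ (h.n ▸ h5)
    have h9 : 32 < sz (lvT md) := by
      match md, h4 with
      | 1, _ => decide
      | _ + 2, _ => exact (by decide : 32 < 2 * 32)
    have k1 : sz (lvT md) = 64 := by
      match md, h4 with
      | 1, _ => rfl
      | _ + 2, _ => rfl
    generalize hx : mul s.lv y (lk a.iv s.tm) = x at e h3
    have k2 : φ y = F.j x * φ s.tm := by
      rw [← v.base x h3, ← hx, v.rep.map _ (h.n ▸ hy) _ (h.n ▸ h8.1), h8.2, inv_mul_cancel_right]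
    have k3 := (Fr.Kp.base F (a := x + 2 ^ 5) (by omega)).conj F c⁻¹
    rw [F.rep.add (i := 5) h3 h9, ← h6 1 (by norm_num), ← h6 x h3, show F.j (2 ^ 5) = _ from h7.symm] at k3
    rw [k2, ← Nat.succ.inj e, show Nat.add 32 x = x + 2 ^ 5 from add_comm _ _]
    simpa [mul_assoc] using k3

theorem aux_base {ms : List (ℕ × Bool)} {ws : List (List (List ℕ))} (h : auxB c s a ms ws = true) :
    AuxS.{u} c s 0 a := by
  intro G _ _ F φ v _
  simp only [auxB, an_iff, lt_iff, allN_iff, frc_eq, Nat.beq_eq, len_eq, nth_eq, cnd_eq, e3_cenK,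
    Nat.add_eq, Nat.pow_eq, Nat.add_eq_zero_iff, List.append_nil, zero_add] at h
  obtain ⟨h1, h2, ⟨⟨z1, z2⟩, z3, z4⟩, h3, h4, h5, h6, h7, h8⟩ := h
  have R := v.rep
  have iv : ∀ x < a.n, lk a.iv x < a.n ∧ φ (lk a.iv x) = (φ x)⁻¹ := fun x hx => ⟨(h4 x hx).1, by
    have := R.map x (h1 ▸ hx) _ (h1 ▸ (h4 x hx).1)
    rw [(h4 x hx).2.1, R.one] at this
    exact (inv_eq_of_mul_eq_one_right this.symm).symm⟩
  have k0 : AuxOk F.toFr s φ { a with kx := 0 } := by
    refine ⟨h1, h2, iv, fun x hx => ?_, fun i hi => ⟨(h5 i hi).1, (h5 i hi).2.1, e3_ord R _ _ (h1 ▸ (h5 i hi).1)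
      (h5 i hi).2.2.1⟩, h3, fun x hx y hy p hp => ?_, fun T hT => ?_, fun i hi e => ?_, fun i hi e => ?_,
      fun i _ j e => ?_, fun i _ => ?_, fun x _ y _ _ => ?_, fun i _ j _ e => ?_, fun i _ j _ e => ?_⟩
    · obtain ⟨-, -, k1, k2, k3, -⟩ := h4 x hx
      refine ⟨k1, k2, ?_⟩
      rw [mul_inv_eq_iff_eq_mul, ← R.map _ (h1 ▸ k2) _ (h1 ▸ hx), k3, R.map _ (h1 ▸ (h5 _ k1).1) _ (h1 ▸ k2)]
    · revert x y
      refine pow_ind (P := fun p => ∀ x < a.n, ∀ y < a.n, φ p * φ x * (φ p)⁻¹ = φ y → lk a.ci x = lk a.ci y)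
        (fun x hx y hy e => ?_) (fun i hi p hp ih x hx y hy e => ?_) p (h2 ▸ hp)
      · rw [R.inj x (h1 ▸ hx) y (h1 ▸ hy) (by simpa [R.one] using e)]
      · have k1 : 2 ^ i < sz s.lv := h1 ▸ h2 ▸ Nat.pow_lt_pow_right one_lt_two hi
        have k2 := iv _ (h1 ▸ k1)
        have k3 := R.wf.lt k1 (h1 ▸ hx)
        rw [← (h4 x hx).2.2.2.2.2 i hi]
        refine ih _ (h1 ▸ R.wf.lt k3 (h1 ▸ k2.1)) y hy ?_
        rw [cj, R.map _ k3 _ (h1 ▸ k2.1), R.map _ k1 _ (h1 ▸ hx), k2.2, ← e, R.add hp k1]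
        group
    · obtain ⟨j, hj, rfl⟩ := List.getElem_of_mem hT
      obtain ⟨k1, k2⟩ := h7 j (h6 ▸ hj)
      rw [List.getD_eq_getElem _ _ k1, List.getD_eq_getElem _ _ hj, h1] at k2
      obtain ⟨g, hg⟩ := v.maps _ (List.getElem_mem k1)
      change ∃ g : G, ∀ x < a.n, ∀ y, _ → y < a.n ∧ _
      rw [h1]
      split_ifs at k2
      · exact ⟨g, mkOk_sound R hg k2⟩
      · exact ⟨g⁻¹, mkOk_sound R (List.Forall₂.imp (fun x y e => by rw [← e]; group) hg.flip) k2⟩
    · have k1 := (h5 i hi).2.2.2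
      rw [if_neg e, an_iff, Nat.beq_eq] at k1
      rw [e3_card R (h1 ▸ (h5 i hi).1), ← h1]
      exact k1.1.symm
    · have k1 := (h5 i hi).2.2.2
      split_ifs at k1 with k2
      · exact (e (Nat.eq_of_beq_eq_true k1)).elim
      · rw [an_iff, orr_iff, Nat.beq_eq, Nat.beq_eq, all2_beq] at k1
        intro y
        change y ∈ a.cli i ↔ y < a.n ∧ _
        rw [← k1.2.resolve_left e, List.mem_filter, List.mem_range]
        exact and_congr_right fun hy => R.com_iff (h1 ▸ hy) (h1 ▸ (h5 i hi).1)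
    · exact absurd ((e3_lk0 i).symm.trans e) (Nat.succ_ne_zero j).symm
    · change (lk a.ds i = 1 → _) ∧ (lk a.ds i = 2 → _)
      simp [z1, e3_lk0]
    · change par a.lam x = par a.lam y
      rw [z2, par_zero', par_zero']
    · change tb a.nf _ = true at e
      simp [z3, tb_eq] at e
    · change tb a.ne _ = true at e
      simp [z4, tb_eq] at e
  refine ⟨k0.n, k0.k, k0.iv, k0.cls, k0.rp, k0.r1, k0.cc, k0.mt, k0.cn, k0.cl, fun i hi j e y hy k e' => ?_, k0.ds, k0.lam,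
    k0.nf, k0.ne⟩
  have k1 := h8 i hi
  rw [e] at k1
  simp only [an_iff, allL_iff, allN_iff, orr_iff, anyL_iff, Nat.beq_eq] at k1
  rw [nth_eq] at e'
  obtain ⟨w, hw, k2⟩ := (k1.2 y hy).resolve_left (e' ▸ Nat.succ_ne_zero k)
  obtain ⟨g, -, hg⟩ := k0.apk v w
  obtain ⟨t, -, k3, k4⟩ := hg _ (h5 i hi).1 _ (k1.1 w hw)
  obtain ⟨y', k5, k6, k7⟩ := hg y hy _ k2
  have k8 := (e3_kb v k0 k5 ((Nat.eq_of_beq_eq_true k7).trans e')).conj F.toFr g⁻¹
  rw [← v.base 1 (by norm_num), Nat.eq_of_beq_eq_true k4, ← k3, ← k6] at k8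
  simpa [mul_assoc] using k8

theorem AuxS.weaken (h : AuxS.{u} c s 0 a) (x : ℕ) : AuxS.{u} c s x a := fun G _ _ F φ v _ => h G F φ v trivial

theorem AuxS.lam (h : AuxS.{u} c s 0 a) (m : ℕ) : AuxS.{u} c s (m + 2) (a.setLam m) := by
  intro G _ _ F φ v hy
  have k := h G F φ v trivial
  refine ⟨k.n, k.k, k.iv, k.cls, k.rp, k.r1, k.cc, k.mt, k.cn, k.cl, k.kt, k.ds, fun x hx y hy' e => ?_, k.nf, k.ne⟩
  obtain ⟨g, e⟩ := isConj_iff.1 e
  have h1 : par m x = 0 ↔ par m y = 0 := by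
    rw [← hy.2 x (k.n ▸ hx), ← hy.2 y (k.n ▸ hy'), ← e]
    exact (F.nK.mem_comm_iff.trans (by simp)).symm
  have h2 := par_lt m x
  have h3 := par_lt m y
  change par m x = par m y
  omega

end CfsgLib.L3E
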