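import Cfsg.Agent.Lib.L3E.E2

/-! Helpers for E4, E6, E7, E9 (plans/DIH8.md, part II) -/

set_option autoImplicit false
set_option linter.unusedSectionVars false

namespace CfsgLib.L3E

open Subgroup CfsgLib.Tech CfsgLib.MOrb Cfsg

universe u

variable {G : Type u} [Group G] [Finite G] {md : ℕ} {F : Fr G md} {c : Cfg} {s s' : St} {φ ψ : ℕ → G} {a : Aux} {l l' : Lv}

theorem ex_not {b : Bool} : cnd b false true = true ↔ ¬ b = true := by cases b <;> simp [cnd]

theorem ex_lvB_cons {v : Lvl} {lv : List Lvl} {gs : List ℕ} (h : lvB l a (v :: lv) gs = true) :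
    v.g < a.n ∧ lvB l a lv (gs ++ [v.g]) = true := by
  change an _ (an _ (an _ (mapK _ _ _))) = true at h
  rw [an_iff, an_iff, an_iff, mapK_eq, List.map_id, snoc_eq, an_iff, lt_iff] at h
  exact ⟨h.1, h.2.2.2.2⟩

theorem ex_lvB_lt {lv : List Lvl} {gs : List ℕ} (h : lvB l a lv gs = true) : ∀ e ∈ lv, e.g < a.n := by
  induction lv generalizing gs with
  | nil => simp
  | cons v lv ih =>
    intro e he
    rcases List.mem_cons.1 he with rfl | he
    · exact (ex_lvB_cons h).1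
    · exact ih (ex_lvB_cons h).2 e he

theorem ex_lvB_drop {lv : List Lvl} {gs : List ℕ} (h : lvB l a lv gs = true) (k : ℕ) :
    lvB l a (lv.drop k) (gs ++ (lv.take k).map Lvl.g) = true := by
  induction k generalizing gs lv with
  | zero => simpa using h
  | succ k ih =>
    cases lv with
    | nil => simpa using h
    | cons v lv => simpa using ih (ex_lvB_cons h).2

/-- the images of a list under a word -/
theorem ex_word {g : G} {w gs : List ℕ}
    (hg : ∀ x < a.n, ∀ y, apw l a w (x + 1) = y + 1 → y < a.n ∧ g * φ x * g⁻¹ = φ y) (hx : ∀ x ∈ gs, x < a.n)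
    (h0 : ∀ x ∈ gs, apw l a w (x + 1) ≠ 0) :
    CJ φ φ g gs (gs.map fun x => Nat.pred (apw l a w (x + 1))) ∧
      ∀ x ∈ gs, Nat.pred (apw l a w (x + 1)) < a.n ∧ g * φ x * g⁻¹ = φ (Nat.pred (apw l a w (x + 1))) := by
  have key : ∀ x ∈ gs, Nat.pred (apw l a w (x + 1)) < a.n ∧ g * φ x * g⁻¹ = φ (Nat.pred (apw l a w (x + 1))) :=
    fun x hx' => hg x (hx x hx') _ (Nat.succ_pred (h0 x hx')).symm
  exact ⟨List.forall₂_map_right_iff.2 (List.forall₂_same.2 fun x hx' => (key x hx').2), key⟩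

theorem ex_mkM (h : Rep l φ) {gs : List ℕ} (hg : ∀ x ∈ gs, x < sz l) {x : ℕ} (hx : tb (mkM (mul l) gs 0 0) x = true) :
    x < sz l ∧ φ x ∈ gp φ gs := by
  obtain ⟨b, -, rfl⟩ := mkM_sound h.wf hg hx
  exact ⟨ev_lt h.wf hg b, h.ev_mem hg b⟩

theorem ex_gp {x : ℕ} {gs : List ℕ} (h : x ∈ gs) : φ x ∈ gp φ gs := subset_closure ⟨x, h, rfl⟩

theorem ex_gp_le {gs : List ℕ} {H : Subgroup G} (h : ∀ x ∈ gs, φ x ∈ H) : gp φ gs ≤ H :=
  (closure_le _).2 (by rintro _ ⟨x, hx, rfl⟩; exact h x hx)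

theorem ex_norm {gs : List ℕ} {g : G} (h : ∀ x ∈ gs, g * φ x * g⁻¹ ∈ gp φ gs) : g ∈ normalizer (gp φ gs : Set G) :=
  mem_normalizer_of_cj_le (map_le_iff_le_comap.2 (ex_gp_le h))

theorem ex_comm {gs : List ℕ} {g x : G} (h : ∀ x ∈ gs, Commute g (φ x)) (hx : x ∈ gp φ gs) : Commute g x :=
  (mem_centralizer_singleton_iff.1 (ex_gp_le (H := centralizer {g})
    (fun y hy => mem_centralizer_singleton_iff.2 (h y hy).symm) hx)).symm

/-- two elements acting in the same way on the generators act in the same way -/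
theorem ex_act {gs : List ℕ} {g g' x : G} (h : ∀ x ∈ gs, g * φ x * g⁻¹ = g' * φ x * g'⁻¹) (hx : x ∈ gp φ gs) :
    g * x * g⁻¹ = g' * x * g'⁻¹ :=
  Fr.conj_of_comm (ex_comm (fun y hy => Fr.comm_of_conj (h y hy)) hx)

theorem ex_xg {k : ℕ} (hk : k = 1 ∨ k = 2 ∨ k = 3) : ∀ x ∈ xg k, x < 32 ∧ tb (xm k) x = true := by
  rcases hk with rfl | rfl | rfl <;> decide +kernel

theorem ex_xm_lt {k y : ℕ} (h : tb (xm k) y = true) : y < 32 := by
  rw [tb_eq] at h
  by_contra hy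
  have : xm k < 2 ^ 32 := by unfold xm; simp only [cnd_eq]; split_ifs <;> norm_num
  rw [Nat.testBit_lt_two_pow (this.trans_le (Nat.pow_le_pow_right (by norm_num) (by omega)))] at h
  exact absurd h (by simp)

theorem Fr.ex_memX (F : Fr G md) {k : ℕ} (hk : k = 1 ∨ k = 2 ∨ k = 3) {g : G} :
    g ∈ F.X k ↔ ∃ y, tb (xm k) y = true ∧ F.j y = g := by
  rcases or_assoc.2 hk with hk | rfl
  · have key : ∀ k ∈ [1, 2], ∀ y < 32, xb k y ↔ tb (xm k) y = true := by decide +kernel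
    refine (F.mem_X hk).trans (exists_congr fun y => and_congr_left fun _ =>
      ⟨fun h => (key k (by simpa using hk) y h.1).1 h, fun h => (key k (by simpa using hk) y (ex_xm_lt h)).2 h⟩)
  · have key : ∀ y < 32, tb (xm 3) y = true := by decide +kernel
    exact F.mem_X3.trans (exists_congr fun y => and_congr_left fun _ => ⟨key y, ex_xm_lt⟩)

namespace Valid

variable (v : Valid F s φ)
include v

theorem ex_gp {gs : List ℕ} (h : ∀ x ∈ gs, x < 32) : gp φ gs = gp F.j gs := by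
  unfold gp
  congr 1
  exact Set.image_congr fun x hx => v.base x (h x hx)

theorem ex_X {k : ℕ} (hk : k = 1 ∨ k = 2 ∨ k = 3) : gp φ (xg k) = F.X k := v.ex_gp fun x hx => (ex_xg hk x hx).1

theorem ex_X3 : F.X 3 ≤ img s.lv φ := by
  rw [← v.ex_X (.inr (.inr rfl))]
  exact v.rep.gp_le fun x hx => (ex_xg (.inr (.inr rfl)) x hx).1.trans_le v.rep.wf.ge

theorem ex_one : φ 1 = F.j 1 := v.base 1 (by norm_num)

end Valid

namespace AuxOk

variable (v : Valid F s φ) (h : AuxOk F s φ a)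
include v h

theorem ex_32 : 32 ≤ a.n := h.n ▸ v.rep.wf.ge

theorem ex_mem {g : G} : g ∈ img s.lv φ ↔ ∃ x < a.n, φ x = g := h.n ▸ v.rep.mem_img

theorem ex_mem' {x : ℕ} (hx : x < a.n) : φ x ∈ img s.lv φ := (h.ex_mem v).2 ⟨x, hx, rfl⟩

theorem ex_mul {x y : ℕ} (hx : x < a.n) (hy : y < a.n) :
    mul s.lv x y < a.n ∧ φ (mul s.lv x y) = φ x * φ y := by
  rw [h.n] at hx hy ⊢
  exact ⟨v.rep.wf.lt hx hy, v.rep.map x hx y hy⟩

theorem ex_inj {x y : ℕ} (hx : x < a.n) (hy : y < a.n) (e : φ x = φ y) : x = y :=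
  v.rep.inj x (h.n ▸ hx) y (h.n ▸ hy) e

theorem ex_com {x y : ℕ} (hx : x < a.n) (hy : y < a.n) : com s.lv x y = true ↔ Commute (φ x) (φ y) :=
  v.rep.com_iff (h.n ▸ hx) (h.n ▸ hy)

theorem ex_k : a.k = s.lv.length + 5 := Nat.pow_right_injective (le_refl 2) (by
  change 2 ^ _ = 2 ^ _
  rw [← h.k, h.n, v.rep.wf.pw])

theorem ex_pows : gp φ (pows a.k) = img s.lv φ := by rw [h.ex_k v]; exact v.rep.gp_pow

omit v in
theorem ex_pows_lt {k : ℕ} (hk : k ≤ a.k) : ∀ x ∈ pows k, x < a.n := fun x hx => by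
  obtain ⟨i, hi, rfl⟩ := List.mem_map.1 hx
  rw [h.k]
  exact Nat.pow_lt_pow_right (by norm_num) ((List.mem_range.1 hi).trans_le hk)

theorem ex_card : Nat.card (img s.lv φ) = a.n := h.n ▸ v.rep.card_img

end AuxOk

end CfsgLib.L3E
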