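import Cfsg.Agent.Lib.L3E.Loc
import Cfsg.Agent.Lib.Coprime.Abelian

/-! FRAT: Frattini steps (plans/DIH8.md) -/

set_option autoImplicit false

namespace CfsgLib.L3E

open Subgroup CfsgLib.Tech CfsgLib.MOrb Cfsg

variable {G : Type*} [Group G] [Finite G]

/-- the centraliser of `R` is `Z(R) × O` -/
def SC (R : Subgroup G) : Prop :=
  ∀ c : G, (∀ a ∈ R, Commute c a) → ∃ x ∈ R, ∃ o ∈ zpowers c, Odd (orderOf o) ∧ c = x * o

theorem SC.mono {R R' : Subgroup G} (h : SC R) (hR : R ≤ R') : SC R' := by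

  intro c hc
  obtain ⟨x, hx, o, ho⟩ := h c fun a ha => hc a (hR ha)
  exact ⟨x, hR hx, o, ho⟩

theorem SC.of_conj {R R' : Subgroup G} (h : SC R') (g : G) (hg : ∀ x ∈ R', ∃ r ∈ R, g * r * g⁻¹ = x) : SC R := by

  intro c hc
  obtain ⟨x, hx, o, ho, h1, h2⟩ := h (g * c * g⁻¹) fun a ha => by
    obtain ⟨r, hr, rfl⟩ := hg a ha
    have := (hc r hr).eq
    change _ * _ = _ * _
    calc _ = g * (c * r) * g⁻¹ := by group
      _ = _ := by rw [this]; group
  obtain ⟨r, hr, rfl⟩ := hg x hx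
  refine ⟨r, hr, g⁻¹ * o * g, ?_, ?_, ?_⟩
  · rw [← cj_zpowers] at ho
    exact mem_cj.1 ho
  · have : orderOf (g⁻¹ * o * g) = orderOf o := by simpa using (MulAut.conj g⁻¹).orderOf_eq o
    rwa [this]
  · calc c = g⁻¹ * (g * c * g⁻¹) * g := by group
      _ = _ := by rw [h2]; group

theorem Fr.scX {md : ℕ} (F : Fr G md) {h : ℕ} (hh : h = 1 ∨ h = 2) : SC (F.X h) := fun _ hc => F.cenX hh hc

private theorem frat_norm {s : Set G} {g : G} (hg : ∀ r ∈ s, g * r * g⁻¹ ∈ closure s) :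
    g ∈ normalizer (closure s : Set G) :=
  mem_normalizer_of_cj_le (map_le_iff_le_comap.2 ((closure_le _).2 hg))

omit [Finite G] in
private theorem frat_cen {s : Set G} {c : G} (hc : ∀ r ∈ s, c * r * c⁻¹ = r) :
    c ∈ centralizer (closure s : Set G) := by
  rw [centralizer_closure]
  exact mem_centralizer_iff.2 fun r hr => by rw [← mul_inv_eq_iff_eq_mul.1 (hc r hr)]

omit [Finite G] in
private theorem frat_pow {K : Subgroup G} {a b : G} (hb : b ∈ normalizer (K : Set G)) (h : a * b⁻¹ ∈ K) (n : ℕ) :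
    a ^ n * (b ^ n)⁻¹ ∈ K := by
  induction n with
  | zero => simp
  | succ n ih =>
    have := mul_mem h (conj_mem_of_mem_normalizer hb ih)
    convert this using 1
    rw [pow_succ', pow_succ']; group

private theorem frat_odd {P : Subgroup G} (hP : IsPGroup 2 P) {o : G} (ho : o ∈ P) (h : Odd (orderOf o)) :
    o = 1 := by
  obtain ⟨k, hk⟩ := isPGroup_zpowers_iff.1 (isPGroup_zpowers_of_mem hP ho)
  rcases k with _ | k
  · exact orderOf_eq_one_iff.1 hk
  · rw [hk, pow_succ] at h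
    exact absurd h (by simp)

/-- 2-elements centralising `R` lie in `R` -/
theorem SC.mem {R P : Subgroup G} (h : SC R) (hP : IsPGroup 2 P) {c : G} (hc : c ∈ P)
    (hR : ∀ a ∈ R, Commute c a) : c ∈ R := by
  obtain ⟨x, hx, o, ho, h1, rfl⟩ := h c hR
  rw [frat_odd hP (zpowers_le.2 hc ho) h1, mul_one]
  exact hx

/-- `g` normalises `R` and `Y C(R)`; generators suffice -/
theorem frat {sR sY : Set G} (hR : SC (closure sR)) (hs : sR ⊆ sY) (hY : IsPGroup 2 (closure sY))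
    (hN : ∀ y ∈ sY, ∀ r ∈ sR, y * r * y⁻¹ ∈ closure sR) {g : G} (hg : ∀ r ∈ sR, g * r * g⁻¹ ∈ closure sR)
    (hgY : ∀ y ∈ sY, ∃ y' ∈ closure sY, ∀ r ∈ sR, g * (y * r * y⁻¹) * g⁻¹ = y' * (g * r * g⁻¹) * y'⁻¹) :
    ∃ g' ∈ normalizer (closure sY : Set G), ∀ r ∈ sR, g' * r * g'⁻¹ = g * r * g⁻¹ := by

  have gN := frat_norm hg
  have YN : closure sY ≤ normalizer (closure sR : Set G) :=
    (closure_le _).2 fun y hy => frat_norm (hN y hy)
  set C := centralizer (closure sR : Set G) with hC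
  have NC : normalizer (closure sR : Set G) ≤ normalizer (C : Set G) := fun n hn =>
    mem_normalizer_iff_cj.2 (by rw [hC, cj_centralizer, mem_normalizer_iff_cj.1 hn])
  have dec : ∀ x ∈ closure sY ⊔ C, ∃ y ∈ closure sY, ∃ c ∈ C, x = y * c := fun x hx => by
    have := coe_mul_of_left_le_normalizer_right (closure sY) C (YN.trans NC)
    rw [← SetLike.mem_coe, this] at hx
    obtain ⟨y, hy, c, hc, e⟩ := hx
    exact ⟨y, hy, c, hc, e.symm⟩
  have syl : IsSylowIn 2 (closure sY) (closure sY ⊔ C) :=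
    isSylowIn_of_maximal hY le_sup_left fun P hP h1 h2 p hp => by
      obtain ⟨y, hy, c, hc, rfl⟩ := dec p (h2 hp)
      have hcP : c ∈ P := (mul_mem_cancel_left (h1 hy)).1 hp
      exact mul_mem hy (closure_mono hs (hR.mem hP hcP fun a ha => (mem_centralizer_iff.1 hc a ha).symm))
  have gH : g ∈ normalizer ((closure sY ⊔ C : Subgroup G) : Set G) := by
    refine mem_normalizer_of_cj_le ?_
    rw [cj_sup, mem_normalizer_iff_cj.1 (NC gN)]
    refine sup_le (map_le_iff_le_comap.2 ((closure_le _).2 fun y hy => ?_)) le_sup_right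
    obtain ⟨y', hy', e⟩ := hgY y hy
    change g * y * g⁻¹ ∈ closure sY ⊔ C
    have : y'⁻¹ * (g * y * g⁻¹) ∈ C := by
      have a1 : g⁻¹ * (y'⁻¹ * (g * y * g⁻¹)) * g ∈ C := frat_cen fun r hr => by
        calc _ = g⁻¹ * y'⁻¹ * (g * (y * r * y⁻¹) * g⁻¹) * y' * g := by group
          _ = _ := by rw [e r hr]; group
      have := conj_mem_of_mem_normalizer (NC gN) a1
      convert this using 1; group
    have := mul_mem (mem_sup_left hy' : y' ∈ closure sY ⊔ C) (mem_sup_right this)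
    rwa [mul_inv_cancel_left] at this
  obtain ⟨n, hn, hn'⟩ := syl.frattini gH
  obtain ⟨y, hy, c, hc, rfl⟩ := dec n hn
  refine ⟨c * g, ?_, fun r hr => ?_⟩
  · rw [mul_assoc] at hn'
    exact (mul_mem_cancel_left (le_normalizer hy)).1 hn'
  · have := mem_centralizer_iff.1 hc _ (hg r hr)
    calc _ = c * (g * r * g⁻¹) * c⁻¹ := by group
      _ = _ := by rw [← this, mul_inv_cancel_right]

theorem frat2 {sR sY : Set G} (hR : SC (closure sR)) (hs : sR ⊆ sY) (hY : IsPGroup 2 (closure sY))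
    (hN : ∀ y ∈ sY, ∀ r ∈ sR, y * r * y⁻¹ ∈ closure sR) {g : G} (hg : ∀ r ∈ sR, g * r * g⁻¹ ∈ closure sR)
    (hgY : ∀ y ∈ sY, ∃ y' ∈ closure sY, ∀ r ∈ sR, g * (y * r * y⁻¹) * g⁻¹ = y' * (g * r * g⁻¹) * y'⁻¹)
    (h2 : ∃ y ∈ closure sY, ∀ r ∈ sR, g * (g * r * g⁻¹) * g⁻¹ = y * r * y⁻¹) :
    ∃ g' ∈ normalizer (closure sY : Set G), g' * g' ∈ closure sY ∧ ∀ r ∈ sR, g' * r * g'⁻¹ = g * r * g⁻¹ := by

  obtain ⟨g', hg', e⟩ := frat hR hs hY hN hg hgY
  obtain ⟨y, hy, e2⟩ := h2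
  have YN : closure sY ≤ normalizer (closure sR : Set G) :=
    (closure_le _).2 fun y hy => frat_norm (hN y hy)
  set C := centralizer (closure sR : Set G) with hC
  have NC : normalizer (closure sR : Set G) ≤ normalizer (C : Set G) := fun n hn =>
    mem_normalizer_iff_cj.2 (by rw [hC, cj_centralizer, mem_normalizer_iff_cj.1 hn])
  have c1 : g⁻¹ * g' ∈ C := frat_cen fun r hr => by
    calc _ = g⁻¹ * (g' * r * g'⁻¹) * g := by group
      _ = _ := by rw [e r hr]; group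
  have e' : ∀ r ∈ closure sR, g' * r * g'⁻¹ = g * r * g⁻¹ := fun r hr => by
    have := mem_centralizer_iff.1 c1 r hr
    calc _ = g * (g⁻¹ * g' * r) * g'⁻¹ := by group
      _ = _ := by rw [← this]; group
  have c2 : y⁻¹ * (g' * g') ∈ C := frat_cen fun r hr => by
    calc _ = y⁻¹ * (g' * (g' * r * g'⁻¹) * g'⁻¹) * y := by group
      _ = _ := by rw [e r hr, e' _ (hg r hr), e2 r hr]; group
  have c3 : g' * g' * y⁻¹ ∈ C := by
    have := conj_mem_of_mem_normalizer (NC (YN hy)) c2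
    convert this using 1; group
  obtain ⟨x, hx, o, ho, ⟨k, hk⟩, h3⟩ := hR _ fun a ha => (mem_centralizer_iff.1 c2 a ha).symm
  have oN : o ∈ normalizer (closure sY : Set G) :=
    zpowers_le.2 (mul_mem (inv_mem (le_normalizer hy)) (mul_mem hg' hg')) ho
  have a1 : g' * g' * o⁻¹ ∈ closure sY := by
    have : g' * g' * o⁻¹ = y * x := by
      rw [mul_inv_eq_iff_eq_mul, mul_assoc, ← h3, mul_inv_cancel_left]
    rw [this]
    exact mul_mem hy (closure_mono hs hx)
  have a2 := frat_pow oN a1 (orderOf o)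
  rw [pow_orderOf_eq_one, inv_one, mul_one, hk] at a2
  have a3 := frat_pow (NC (YN hy)) c3 k
  have a4 : g' * (g' * g') ^ k ∈ normalizer (closure sY : Set G) := mul_mem hg' (pow_mem (mul_mem hg' hg') k)
  refine ⟨g' * ((g' * g') ^ k * (y ^ k)⁻¹),
    mul_mem hg' (mul_mem (pow_mem (mul_mem hg' hg') k) (inv_mem (pow_mem (le_normalizer hy) k))), ?_,
    fun r hr => ?_⟩
  · have b1 := mul_mem (mul_mem (conj_mem_of_mem_normalizer a4 (inv_mem (pow_mem hy k))) a2) (inv_mem (pow_mem hy k))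
    convert b1 using 1
    have : (g' * g') ^ (2 * k + 1) = g' * (g' * g') ^ k * (g' * (g' * g') ^ k) := by
      simp only [← pow_two, ← pow_mul, ← pow_succ']
      congr 1; ring
    rw [this]; group
  · have := mem_centralizer_iff.1 a3 r (subset_closure hr)
    generalize (g' * g') ^ k * (y ^ k)⁻¹ = c at this
    calc _ = g' * (c * r) * c⁻¹ * g'⁻¹ := by group
      _ = _ := by rw [← this, ← e r hr]; group

/-- an element normalising the 2-group `R ≥ A` and centralising `A` acts on `R` as an element of `A` -/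
theorem act_of_cen {A R : Subgroup G} (hA : SC A) (hAR : A ≤ R) (hR : IsPGroup 2 R) {c : G}
    (hc : c ∈ normalizer (R : Set G)) (hcA : ∀ a ∈ A, Commute c a) :
    ∃ x ∈ A, ∀ r ∈ R, c * r * c⁻¹ = x * r * x⁻¹ := by

  obtain ⟨x, hx, o, ho, h1, h2⟩ := hA c hcA
  have oA : A ≤ centralizer (zpowers o : Set G) := fun a ha => mem_centralizer_iff.2 fun u hu => by
    obtain ⟨k, rfl⟩ := mem_zpowers_iff.1 (zpowers_le.2 ho hu)
    exact ((hcA a ha).zpow_left k).eq
  have := Coprime.le_centralizer_of_self_centralizing (H := R) (A := zpowers o) (C := A) hR.isNilpotent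
    (zpowers_le.2 (zpowers_le.2 hc ho))
    (Coprime.coprime_card_of_isPGroup hR (by rw [Nat.card_zpowers]; exact Nat.coprime_two_right.2 h1)) hAR oA
    fun r hr => oA (hA.mem hR hr.1 fun a ha => (mem_centralizer_iff.1 hr.2 a ha).symm)
  refine ⟨x, hx, fun r hr => ?_⟩
  have := mem_centralizer_iff.1 (this (mem_zpowers o)) r hr
  calc _ = x * (o * r) * o⁻¹ * x⁻¹ := by rw [h2]; group
    _ = _ := by rw [← this]; group

/-- the stabiliser of `t` in `N(R)` acts on `R` as `T₁ ⟨g⟩` -/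
theorem Fr.stab {md : ℕ} (F : Fr G md) {h : ℕ} (hh : h = 1 ∨ h = 2) {R : Subgroup G} (hR : IsPGroup 2 R)
    (hX : F.X h ≤ R) (hC : ∀ r ∈ R, Commute r (F.j 1) → r ∈ F.X h) (hT : F.X 3 ≤ normalizer (R : Set G))
    {g n : G} (hg : g ∈ normalizer (R : Set G))
    (hgX : ∀ a < 32, lk (if h = 1 then sgT else taT) a < 32 → (h = 1 → a < 16) →
      g * F.j a * g⁻¹ = F.j (lk (if h = 1 then sgT else taT) a))
    (hn : n ∈ normalizer (R : Set G)) (hnt : Commute n (F.j 1)) :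
    ∃ x < 32, ∃ i < 3, ∀ r ∈ R, n * r * n⁻¹ = F.j x * g ^ i * r * (F.j x * g ^ i)⁻¹ := by

  have h32 : 32 ≤ sz (lvT md) := by
    rw [F.rep.wf.pw]
    exact Nat.pow_le_pow_right (n := 2) (by omega) (Nat.le_add_left 5 _)
  have X3 : F.X h ≤ F.X 3 := by
    refine closure_mono (Set.image_mono ?_)
    rcases hh with rfl | rfl <;> simp [xg]
  have Xt : ∀ r ∈ F.X h, Commute r (F.j 1) := fun r hr => by
    obtain ⟨a, ha, rfl⟩ := F.mem_X3.1 (X3 hr)
    exact mem_centralizer_singleton_iff.1 (F.syl.le (subset_closure ⟨a, ha.trans_le h32, rfl⟩))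
  have nX : ∀ m ∈ normalizer (R : Set G), Commute m (F.j 1) → m ∈ normalizer (F.X h : Set G) :=
    fun m hm hc => mem_normalizer_of_forall fun x hx => hC _ (conj_mem_of_mem_normalizer hm (hX hx))
      ((hc.mul_left (Xt x hx)).mul_left hc.inv_left)
  have gt : Commute g (F.j 1) := by
    have : lk (if h = 1 then sgT else taT) 1 = 1 := by rcases hh with rfl | rfl <;> decide +kernel
    have h1 := hgX 1 (by omega) (by omega) (by omega)
    rw [this] at h1
    exact mul_inv_eq_iff_eq_mul.1 h1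
  have ex : ∃ x < 32, ∃ i < 3, ∀ a ∈ F.X h, n * a * n⁻¹ = F.j x * g ^ i * a * (F.j x * g ^ i)⁻¹ := by
    rcases hh with rfl | rfl
    · refine F.actA hnt (nX n hn hnt) fun a ha => hgX a (by omega) ?_ fun _ => ha
      revert a
      decide +kernel
    · exact F.actB hnt (nX n hn hnt) fun a ha hb => hgX a ha hb (by omega)
  obtain ⟨x, hx, i, hi, e⟩ := ex
  have jx : F.j x ∈ F.X 3 := F.mem_X3.2 ⟨x, hx, rfl⟩
  obtain ⟨a, ha, e2⟩ := act_of_cen (F.scX hh) hX hR (c := (F.j x * g ^ i)⁻¹ * n)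
    (mul_mem (inv_mem (mul_mem (hT jx) (pow_mem hg i))) hn) fun a ha => by
      change _ * _ = _ * _
      calc _ = (F.j x * g ^ i)⁻¹ * (n * a * n⁻¹) * n := by group
        _ = _ := by rw [e a ha]; group
  obtain ⟨x', hx', e3⟩ := F.mem_X3.1
    (mul_mem jx (X3 (conj_mem_of_mem_normalizer (pow_mem (nX g hg gt) i) ha)))
  refine ⟨x', hx', i, hi, fun r hr => ?_⟩
  calc _ = F.j x * g ^ i * ((F.j x * g ^ i)⁻¹ * n * r * ((F.j x * g ^ i)⁻¹ * n)⁻¹) * (F.j x * g ^ i)⁻¹ := by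
        group
    _ = _ := by rw [e2 r hr, e3]; group

end CfsgLib.L3E
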