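import Cfsg.Agent.Lib.L3E.E2
import Cfsg.Agent.Lib.L3E.Frat
import Cfsg.Agent.Lib.L3E.E4a

/-! E4: labels and contradictions (plans/DIH8.md, part II) -/

set_option autoImplicit false

namespace CfsgLib.L3E

open Subgroup CfsgLib.Tech CfsgLib.MOrb Cfsg

universe u

variable {G : Type u} [Group G] [Finite G] {md : ℕ} {F : Fr G md} {c : Cfg} {s s' : St} {φ ψ : ℕ → G} {a : Aux} {l l' : Lv}

omit [Finite G] in
private theorem e4_D {x y : G} (h : IsConj x y) : F.D x ↔ F.D y :=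
  ⟨fun h' => h'.trans h, fun h' => h'.trans h.symm⟩

private theorem e4_inc {n v b : ℕ} {L : List ℕ} (h : incB l n v L b = true) :
    L.Nodup ∧ ∀ y ∈ L, b ≤ y ∧ y < n ∧ com l y v = true := by
  induction L generalizing b with
  | nil => simp
  | cons y L ih =>
    change an _ (an _ (an _ (incB l n v L (y + 1)))) = true at h
    rw [an_iff, an_iff, an_iff, lt_iff, Nat.ble_eq] at h
    obtain ⟨h1, h2⟩ := ih h.2.2.2
    refine ⟨List.nodup_cons.2 ⟨fun hy => absurd (h2 y hy).1 (by omega), h1⟩, fun z hz => ?_⟩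
    rcases List.mem_cons.1 hz with rfl | hz
    · exact ⟨h.1, h.2.1, h.2.2.1⟩
    · exact ⟨by have := (h2 z hz).1; omega, (h2 z hz).2⟩

theorem jst_sound {F : Cf G c} (v : Valid F.toFr s φ) (h : AuxOk F.toFr s φ a) {j : Jc} {d : ℕ}
    (e : jst c s a j d = true) :
    j.i < a.nc ∧ (d = 1 → ¬ F.toFr.D (φ (lk a.rp j.i))) ∧ (d = 2 → F.toFr.D (φ (lk a.rp j.i))) := by

  rw [jst, frc_eq, an_iff, lt_iff] at e
  obtain ⟨hi, e⟩ := e
  have hx := (h.rp _ hi).1
  refine ⟨hi, ?_⟩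
  obtain ⟨g, -, hg⟩ := h.apk v j.w
  have cD : ∀ {y : ℕ}, g * φ (lk a.rp j.i) * g⁻¹ = φ y → (F.toFr.D (φ (lk a.rp j.i)) ↔ F.toFr.D (φ y)) :=
    fun e => e4_D (isConj_iff.2 ⟨g, e⟩)
  have hP := v.rep.isPGroup
  simp only [cnd_eq, Nat.beq_eq] at e
  split_ifs at e with t0 t1 t2 t3 t4
  · rw [an_iff, lt_iff] at e
    obtain ⟨y, hy, e1, e2⟩ := hg _ hx _ e.2
    rw [frc_eq, an_iff, ne_iff, Nat.beq_eq, tb_eq] at e2
    obtain ⟨g', b, hb, -, b1, b2⟩ := h.kap v e.1 hy (Nat.succ_pred e2.1).symm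
    have key : F.toFr.D (φ (lk a.rp j.i)) ↔ c.dp.testBit (kap s.lv a j.d y).pred = true := by
      rw [cD e1, e4_D (isConj_iff.2 ⟨g', b1⟩), F.pat b hb, b2]
    rw [key]
    have := e2.2
    split_ifs at this with h1
    · exact ⟨fun e => absurd (e.symm.trans this) (by norm_num), fun _ => h1⟩
    · exact ⟨fun _ => h1, fun e => absurd (e.symm.trans this) (by norm_num)⟩
  · obtain ⟨y, hy, e1, e2⟩ := hg _ hx _ e
    rw [an_iff, Nat.beq_eq] at e2
    rw [cD e1, e4_D (h.isConj_rp hy), e2.2]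
    exact h.ds _ (h.cls y hy).1
  all_goals
    rw [an_iff, Nat.beq_eq] at e
    obtain ⟨rfl, e⟩ := e
    refine ⟨fun _ hD => ?_, fun h => absurd h (by norm_num)⟩
  · simp only [an_iff, lt_iff, Nat.beq_eq] at e
    obtain ⟨m2, hd, e⟩ := e
    have e1 : φ j.d * φ j.d = φ (lk a.rp j.i) := by rw [← e, (h.ex_mul v hd hd).2]
    obtain ⟨g', g1, g2⟩ := F.toFr.emb hD (isPGroup_zpowers_of_mem hP (h.ex_mem' v hd)) fun r hr => by
      obtain ⟨k, rfl⟩ := mem_zpowers_iff.1 hr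
      rw [← e1]
      exact ((Commute.refl _).mul_right (Commute.refl _)).zpow_left k
    obtain ⟨b, hb, e2⟩ := g2 _ (mem_zpowers _)
    have e3 : F.j (mul (lvT c.md) b b) = F.j 1 := by rw [F.rep.map b hb b hb, ← e2, ← g1, ← e1]; group
    exact (by decide +kernel : ∀ m < 2, ∀ b < sz (lvT m), mul (lvT m) b b ≠ 1) _ m2 b hb
      (F.rep.inj _ (F.rep.wf.lt hb hb) _ (Fr.lt (by norm_num)) e3)
  · rw [lt_iff] at e
    have := F.toFr.card_le hD (R := img s.lv φ ⊓ centralizer {φ (lk a.rp j.i)}) hP.to_inf_left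
      fun r hr => mem_centralizer_singleton_iff.1 hr.2
    rw [← h.cn _ hi (by omega)] at this
    omega
  · rw [an_iff, lt_iff, len_eq] at e
    obtain ⟨e1, e2⟩ := e4_inc e.2
    have := F.toFr.card_le hD (R := img s.lv φ ⊓ centralizer {φ (lk a.rp j.i)}) hP.to_inf_left
      fun r hr => mem_centralizer_singleton_iff.1 hr.2
    have h3 : j.w.length ≤ Nat.card ↥(img s.lv φ ⊓ centralizer {φ (lk a.rp j.i)}) := by
      rw [← List.toFinset_card_of_nodup e1, ← Fintype.card_coe, ← Nat.card_eq_fintype_card]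
      refine Nat.card_le_card_of_injective (fun y => ⟨φ y.1, h.ex_mem' v (e2 _ (List.mem_toFinset.1 y.2)).2.1,
        mem_centralizer_singleton_iff.2 ((h.ex_com v (e2 _ (List.mem_toFinset.1 y.2)).2.1 hx).1
          (e2 _ (List.mem_toFinset.1 y.2)).2.2)⟩) fun y z e => Subtype.ext ?_
      exact h.ex_inj v (e2 _ (List.mem_toFinset.1 y.2)).2.1 (e2 _ (List.mem_toFinset.1 z.2)).2.1
        (congrArg Subtype.val e)
    omega
  · simp only [an_iff, allL_iff, Nat.beq_eq, mapK_eq, List.map_id] at e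
    obtain ⟨e1, e2, e3⟩ := e
    obtain ⟨g', g1, g2⟩ := F.toFr.emb hD (R := img s.lv φ ⊓ centralizer {φ (lk a.rp j.i)}) hP.to_inf_left
      fun r hr => mem_centralizer_singleton_iff.1 hr.2
    obtain ⟨-, -, -, h4⟩ := dfs_sound v h F.rep (fun _ _ _ _ _ h => absurd h (by simp))
      (fun x hx y hy e => h.clashT hx hy e) (fun d _ y hy k e => by
        simp only [kapT, cnd_eq, Nat.beq_eq] at e
        split_ifs at e with hd
        rw [hd, ← Nat.succ.inj e]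
        exact Fr.Kp.base _ hy) (g := g') (fun e he => by
        have := ex_lvB_lt e1 e he
        obtain ⟨y, hy, e4⟩ := g2 _ ⟨h.ex_mem' v this,
          mem_centralizer_singleton_iff.2 ((h.ex_com v this hx).1 (e2 e he).2.2)⟩
        exact ⟨y, hy, e4, fun _ => List.mem_range.2 hy, fun h => absurd (e2 e he).2.1 h⟩)
      (by simpa using hx) (by simpa using Fr.lt (by norm_num)) (List.Forall₂.cons g1 List.Forall₂.nil) e1 e3
    exact absurd h4 (by simp)

theorem AuxS.up {x d : ℕ} {js : List Jc} (h : AuxS.{u} c s x a) (e : upB c s a d js = true) :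
    AuxS.{u} c s x (a.setDs d) := by

  intro G _ _ F φ v hy
  have h := h G F φ v hy
  simp only [upB, an_iff, allL_iff, allN_iff, frc_eq, orr_iff, anyL_iff, Nat.beq_eq, ne_iff] at e
  refine { h with ds := fun i hi => ?_ }
  change (lk d i = 1 → ¬ F.toFr.D (φ (lk a.rp i))) ∧ (lk d i = 2 → F.toFr.D (φ (lk a.rp i)))
  rcases e.2 i hi with e1 | ⟨e1, e2⟩ | ⟨j, hj, rfl⟩
  · rw [e1]; exact h.ds i hi
  · refine ⟨fun _ hD => e2 ?_, fun e => absurd (e1.symm.trans e) (by norm_num)⟩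
    obtain ⟨g, hg⟩ := isConj_iff.1 hD
    have a1 : orderOf (F.j 1) = 2 := orderOf_eq_prime (by rw [pow_two, F.toFr.tt])
      fun e => absurd ((F.rep.eq_one (Fr.lt (by norm_num))).1 e) (by norm_num)
    have a2 : orderOf (φ (lk a.rp i)) = 2 := by
      rw [← hg, ← a1]; exact (MulAut.conj g).orderOf_eq _
    rw [(h.rp i hi).2.2] at a2
    exact Nat.pow_right_injective (le_refl 2) a2
  · exact (jst_sound v h (e.1 j hj)).2

theorem AuxS.k1 {x : ℕ} {j : Jc} (h : AuxS.{u} c s x a) (e : k1B c s a j = true) : Sound.{u} c s x := by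

  intro G _ _ F φ v hy
  have h := h G F φ v hy
  simp only [k1B, an_iff, frc_eq, ne_iff, lt_iff] at e
  obtain ⟨hi, e1, e2⟩ := jst_sound v h e.2.2
  obtain e3 | e3 : lk a.ds j.i = 1 ∨ lk a.ds j.i = 2 := by omega
  · exact absurd (e2 (by rw [e3])) ((h.ds _ hi).1 e3)
  · exact absurd ((h.ds _ hi).2 e3) (e1 (by rw [e3]))
theorem AuxS.k2 {x d y : ℕ} {w : List ℕ} (h : AuxS.{u} c s x a) (e : k2B s a d y w = true) : Sound.{u} c s x := by

  intro G _ _ F φ v hy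
  have h := h G F φ v hy
  rw [k2B, an_iff, an_iff, lt_iff, lt_iff] at e
  obtain ⟨g, -, hg⟩ := h.apk v w
  obtain ⟨d', hd', e1, e2⟩ := hg _ e.1 _ e.2.2
  obtain ⟨y', hy', e3, e4⟩ := hg _ e.2.1 _ e2
  simp only [frc_eq, an_iff, ne_iff] at e4
  have k1 := (h.kap v e.1 e.2.1 (Nat.succ_pred e4.1).symm).conj _ g
  have k2 := h.kap v hd' hy' (Nat.succ_pred e4.2.1).symm
  rw [e1, e3] at k1
  exact absurd (by rw [← Nat.succ_pred e4.1, ← Nat.succ_pred e4.2.1, k1.uniq _ k2]) e4.2.2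
theorem AuxS.k3 {x k : ℕ} {w : List ℕ} (h : AuxS.{u} c s x a) (e : k3B s a k w = true) : Sound.{u} c s x := by

  intro G _ _ F φ v hy
  have h := h G F φ v hy
  simp only [k3B, an_iff, orr_iff, Nat.beq_eq, mapK_eq, allL_iff, allN_iff, ne_iff, nth_eq, ex_not, all2_iff,
    List.forall_mem_map, Nat.succ_eq_add_one, List.forall₂_map_right_iff, List.forall₂_same] at e
  obtain ⟨hk, e1, e2, e3⟩ := e
  have hk' : k = 1 ∨ k = 2 ∨ k = 3 := hk.imp_right .inl
  obtain ⟨g, hg⟩ := h.apw v w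
  have h32 := h.ex_32 v
  obtain ⟨-, c2⟩ := ex_word hg (fun x hx => (ex_xg hk' x hx).1.trans_le h32) fun x hx => (e2 x hx).1
  have c3 : ∀ x ∈ xg k, g * F.j x * g⁻¹ = F.j (apw s.lv a w (x + 1)).pred := fun x hx => by
    rw [← v.base x (ex_xg hk' x hx).1, (c2 x hx).2, v.base _ (ex_xm_lt (e2 x hx).2)]
  have gt : Commute g (F.j 1) := by
    have : apw s.lv a w (1 + 1) = 2 := by rcases hk with rfl | rfl <;> exact e1
    have h1 := c3 1 (by rcases hk with rfl | rfl <;> simp [xg])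
    rw [this] at h1
    exact mul_inv_eq_iff_eq_mul.1 h1
  obtain ⟨σ, hσ⟩ : ∃ σ : G, ∀ b, xb k b → σ * F.j b * σ⁻¹ = F.j (lk (if k = 1 then sgT else taT) b) := by
    rcases hk with rfl | rfl
    · exact ⟨F.σ, fun b hb => F.hσ b hb.2⟩
    · exact ⟨F.τ, fun b hb => F.hτ b hb.1 hb.2⟩
  obtain ⟨p, hp, i, hi, e4⟩ := F.toFr.actX hk gt (ex_norm fun x hx => by
    rw [c3 x hx]; exact (F.toFr.ex_memX hk').2 ⟨_, (e2 x hx).2, rfl⟩) hσ
  have st : ∀ x, xb k x → ∀ i, xb k (sti k i x) ∧ σ ^ i * F.j x * (σ ^ i)⁻¹ = F.j (sti k i x) := fun x hx i => by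
    induction i with
    | zero => exact ⟨hx, by simp [sti]⟩
    | succ i ih =>
      have : sti k (i + 1) x = lk (if k = 1 then sgT else taT) (sti k i x) := by
        change lk (cnd _ _ _) (sti k i x) = _
        simp only [cnd_eq, Nat.beq_eq]
      rw [this]
      refine ⟨(by decide +kernel : ∀ k ∈ [1, 2], ∀ y < 32, xb k y → xb k (lk (if k = 1 then sgT else taT) y)) k
        (by simpa using hk) _ ih.1.1 ih.1, ?_⟩
      rw [← hσ _ ih.1, ← ih.2, pow_succ']; group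
  refine absurd (fun x hx => ?_) (e3 p hp i hi)
  have hx' : xb k x := (by decide +kernel : ∀ k ∈ [1, 2], ∀ x ∈ xg k, xb k x) k (by simpa using hk) x hx
  have e5 := e4 _ (ex_gp hx)
  have lt5 : ∀ x < 32, ∀ y < 32, m5 x y < 32 := by decide +kernel
  have b1 := ex_xm_lt (e2 x hx).2
  refine F.rep.inj _ (Fr.lt (lt5 _ hp _ (st x hx' i).1.1)) _ (Fr.lt (lt5 _ b1 _ hp)) ?_
  rw [← F.toFr.m32 hp (st x hx' i).1.1, ← F.toFr.m32 b1 hp, ← c3 x hx, e5, ← (st x hx' i).2]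
  group
theorem AuxS.k4 {x k : ℕ} {w0 w gs : List ℕ} (h : AuxS.{u} c s x a) (e : k4B s a k w0 w gs = true) :
    Sound.{u} c s x := by

  intro G _ _ F φ v hy
  have h := h G F φ v hy
  simp only [k4B, an_iff, orr_iff, Nat.beq_eq, mapK_eq, allL_iff, allN_iff, ne_iff, lt_iff, ex_not, all2_iff, frc_eq,
    List.forall_mem_map, Nat.succ_eq_add_one, List.forall₂_map_right_iff, List.forall₂_same, List.map_map, Function.comp_def] at e
  obtain ⟨hk, e1, e2, e3, e4⟩ := e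
  have hk' : k = 1 ∨ k = 2 ∨ k = 3 := hk.imp_right .inl
  obtain ⟨g0, hg0⟩ := h.apw v w0
  obtain ⟨g, hg⟩ := h.apw v w
  have h32 := h.ex_32 v
  have e1' : ∀ x ∈ gs, x < sz s.lv := h.n ▸ e1
  obtain ⟨c1, c2⟩ := ex_word hg0 (fun x hx => (ex_xg hk' x hx).1.trans_le h32) fun x hx => (e2 x hx).1
  obtain ⟨-, c4⟩ := ex_word hg e1 fun x hx => (e3 x hx).1
  have hA : SC (Tech.cj g0 (F.toFr.X k)) := (F.toFr.scX hk).of_conj g0⁻¹ fun x hx =>
    ⟨g0 * x * g0⁻¹, conj_mem_cj.2 hx, by group⟩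
  have hAR : Tech.cj g0 (F.toFr.X k) ≤ gp φ gs := by
    rw [← v.ex_X hk']
    exact map_le_iff_le_comap.2 (ex_gp_le fun x hx => by
      change g0 * φ x * g0⁻¹ ∈ gp φ gs
      rw [(c2 x hx).2]
      exact (ex_mkM v.rep e1' (e2 x hx).2.1).2)
  obtain ⟨p, hp, e5⟩ := act_of_cen hA hAR (v.rep.isPGroup.to_le (v.rep.gp_le e1')) (c := g)
    (ex_norm fun x hx => by rw [(c4 x hx).2]; exact (ex_mkM v.rep e1' (e3 x hx).2).2) fun y hy => by
      rw [mem_cj, ← v.ex_X hk'] at hy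
      have : Commute (g0⁻¹ * g * g0) (g0⁻¹ * y * g0) := ex_comm (fun x hx => by
        have := (hg _ (c2 x hx).1 _ (by
          rw [← Nat.succ_eq_add_one, Nat.succ_pred (e2 x hx).1, (e2 x hx).2.2])).2
        rw [← (c2 x hx).2] at this
        refine mul_inv_eq_iff_eq_mul.1 ?_
        calc _ = g0⁻¹ * (g * (g0 * φ x * g0⁻¹) * g⁻¹) * g0 := by group
          _ = _ := by rw [this]; group) hy
      change _ * _ = _ * _
      calc g * y = g0 * (g0⁻¹ * g * g0 * (g0⁻¹ * y * g0)) * g0⁻¹ := by group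
        _ = _ := by rw [this.eq]; group
  obtain ⟨y, y1, y2⟩ := (F.toFr.ex_memX hk').1 (mem_cj.1 hp)
  obtain ⟨b, hb, rfl⟩ : ∃ b < 16, ev m5 (xg k) b = y :=
    (by decide +kernel : ∀ k ∈ [1, 2], ∀ y < 32, tb (xm k) y = true → ∃ b < 16, ev m5 (xg k) b = y) k
      (by simpa using hk) y (ex_xm_lt y1) y1
  have b1 := CJ.ev (l := []) v.rep.base v.rep c1 (fun x hx => (ex_xg hk' x hx).1) (by
    simpa using fun x hx => h.n ▸ (c2 x hx).1) b
  have b2 : mul [] = m5 := funext fun x => funext fun y => mul_nil x y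
  rw [b2, v.base _ (ex_xm_lt y1), y2] at b1
  have b3 := ev_lt v.rep.wf (gs := (xg k).map fun x => (apw s.lv a w0 (x + 1)).pred) (by
    simpa using fun x hx => h.n ▸ (c2 x hx).1) b
  rw [← h.n] at b3
  refine absurd (fun x hx => ?_) (e4 b hb)
  obtain ⟨b4, b5⟩ := h.cj v b3 (e1 x hx)
  rw [← Nat.succ_pred (e3 x hx).1]
  refine congrArg (· + 1) (h.ex_inj v b4 (c4 x hx).1 ?_)
  rw [b5, ← b1, ← (c4 x hx).2, e5 _ (ex_gp hx)]
  group
theorem AuxS.k5 {x y : ℕ} {w : List ℕ} (h : AuxS.{u} c s x a) (e : k5B s a y w = true) : Sound.{u} c s x := by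

  intro G _ _ F φ v hy
  have h := h G F φ v hy
  rw [k5B, an_iff, lt_iff] at e
  obtain ⟨g, -, hg⟩ := h.apk v w
  obtain ⟨z, hz, e1, e2⟩ := hg _ e.1 _ e.2
  exact absurd (isConj_iff.2 ⟨g, e1⟩) (h.clash e.1 hz e2)

end CfsgLib.L3E
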