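import Cfsg.Agent.Lib.L3E.E2

/-! E5: changes of coordinates, leaves (plans/DIH8.md, part II) -/

set_option autoImplicit false

namespace CfsgLib.L3E

open Subgroup CfsgLib.Tech CfsgLib.MOrb Cfsg

universe u

variable {G : Type u} [Group G] [Finite G] {md : ℕ} {F : Fr G md} {c : Cfg} {s s' : St} {φ ψ : ℕ → G} {a : Aux} {l l' : Lv}

theorem e5_comp {R S T : ℕ → ℕ → Prop} (h : ∀ x y z, R x y → S y z → T x z) {xs ys zs : List ℕ}
    (h1 : List.Forall₂ R xs ys) (h2 : List.Forall₂ S ys zs) : List.Forall₂ T xs zs := by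
  induction h1 generalizing zs with
  | nil => cases h2; exact .nil
  | cons h3 _ ih => cases h2 with | cons h4 h5 => exact .cons (h _ _ _ h3 h4) (ih h5)

theorem e5_imp {R T : ℕ → ℕ → Prop} {xs ys : List ℕ} (h1 : List.Forall₂ R xs ys)
    (h : ∀ x ∈ xs, ∀ y ∈ ys, R x y → T x y) : List.Forall₂ T xs ys := by
  induction h1 with
  | nil => exact .nil
  | cons h3 _ ih => exact .cons (h _ (.head _) _ (.head _) h3) (ih fun x hx y hy => h x (.tail _ hx) y (.tail _ hy))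

theorem jmpB_sound (v : Valid F s φ) (h : AuxOk F s φ a) (hw : Wf s'.lv) {χ : ℕ} {ws : List (List ℕ)}
    (e : jmpB s a s' χ ws = true) : (∀ x < sz s'.lv, lk χ x < sz s.lv) ∧ Valid F s' fun x => φ (lk χ x) := by
  simp only [jmpB, relB, an_iff, orr_iff, ne_iff, lt_iff, allN_iff, anyN_iff, all2_iff, frc_eq, Nat.beq_eq, Nat.ble_eq,
    len_eq, nth_eq, Nat.pow_eq] at e
  obtain ⟨h1, h2, h3, h4, h5, h6⟩ := e
  have hC := consB_sound (hw.le.trans (by norm_num)) h1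
  have R := v.rep
  refine ⟨hC.2.1, R.comp hw hC (fun j hj => ?_) fun x hx e => (h3 x hx).resolve_right fun e' => e' e,
    fun x hx => by rw [h4 x hx, v.base x hx], fun m hm => ?_, fun e => ?_⟩
  · have k1 : j < 12 := (Nat.pow_lt_pow_iff_right one_lt_two).1 (hj.trans_le (hw.le.trans (by norm_num)))
    obtain ⟨k2, k3⟩ := (h2 j k1).resolve_left (not_le.2 hj)
    beta_reduce
    refine ⟨by rw [← k2, R.map _ (hC.2.1 _ hj) _ (hC.2.1 _ hj)], fun i hi => ?_⟩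
    rw [← k3 i hi, R.map _ (hC.2.1 _ hj) _ (hC.2.1 _ ((Nat.pow_lt_pow_right one_lt_two hi).trans hj))]
  · obtain ⟨j, hj, rfl⟩ := List.getElem_of_mem hm
    have k1 := h5 j hj
    rw [List.getD_eq_getElem _ _ hj] at k1
    obtain ⟨g, -, hg⟩ := h.apk v (ws.getD j [])
    refine ⟨g, k1.imp fun x y k2 => ?_⟩
    obtain ⟨y', -, k3, k4⟩ := hg _ (h.n ▸ hC.2.1 x k2.1) _ k2.2
    exact k3.trans (congrArg φ (Nat.eq_of_beq_eq_true k4).symm)
  · obtain ⟨k1, k2, p, hp, k3⟩ := h6.resolve_left e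
    obtain ⟨k4, k5, c, k6, k7⟩ := v.tm k1
    have k8 : p < a.n := h.n ▸ (hp.trans_le (by norm_num)).trans_le R.wf.ge
    refine ⟨k4, k2, c * (φ p)⁻¹, fun b hb => ?_, ?_⟩
    · have k9 : F.j b * F.j p = F.j p * F.j b := by
        rw [F.m32 hb (by omega), F.m32 (by omega) hb, (by decide +kernel : ∀ p < 8, ∀ b < 32, m5 b p = m5 p b) p hp b hb]
      rw [v.base p (by omega), mul_inv_rev, inv_inv, mul_assoc, mul_assoc, ← mul_assoc (F.j b), k9]
      simpa [mul_assoc] using k6 b hb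
    · rw [k3, (h.cj v k8 (h.n ▸ k5)).2, ← k7]
      group

theorem AuxS.jump {x χ : ℕ} {ws : List (List ℕ)} (h : AuxS.{u} c s x a) (e : jmpB s a s' χ ws = true)
    (hw : wfB s'.lv = true) (h' : Sound.{u} c s' 0) : Sound.{u} c s x :=
  fun G _ _ F φ v hy => h' G F _ (jmpB_sound v (h G F φ v hy) (wfB_sound hw) e).2 trivial

theorem AuxS.gam {gm : List (ℕ × List (List ℕ))} (h : AuxS.{u} c s 0 a) (e : gamB s a gm = true) :
    GamS.{u} c s (gm.map Prod.fst) := by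
  intro G _ _ F φ v γ hγ
  obtain ⟨q, hq, rfl⟩ := List.mem_map.1 hγ
  exact jmpB_sound v (h G F φ v trivial) v.rep.wf (allL_iff.1 e q hq)

theorem GamS.nil : GamS.{u} c s [] := fun _ _ _ _ _ _ _ h => absurd h List.not_mem_nil

theorem GamS.gw {F : Cf G c} {gm : List ℕ} (hg : GamS.{u} c s gm) (v : Valid F.toFr s φ) {w : List ℕ}
    (hw : ∀ i ∈ w, i < gm.length) :
    (∀ x < sz s.lv, L3E.gw gm w x < sz s.lv) ∧ Valid F.toFr s fun x => φ (L3E.gw gm w x) := by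
  induction w generalizing φ with
  | nil => exact ⟨fun _ h => h, v⟩
  | cons i w ih =>
    have h1 : nth 0 gm i ∈ gm := by
      rw [nth_eq, List.getD_eq_getElem _ _ (hw i (.head _))]
      exact List.getElem_mem _
    obtain ⟨h2, h3⟩ := hg G F φ v _ h1
    obtain ⟨h4, h5⟩ := ih h3 fun j hj => hw j (.tail _ hj)
    exact ⟨fun x hx => h2 _ (h4 x hx), h5⟩

theorem AllS.mem {L : List St} (h : AllS.{u} c L) (hs : s ∈ L) : Sound.{u} c s 0 := by
  induction h with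
  | nil => cases hs
  | cons h1 _ ih =>
    rcases List.mem_cons.1 hs with rfl | hs
    exacts [h1, ih hs]

omit [Finite G] in
theorem e5_tm (v : Valid F s φ) (e : tmB s s' = true) (h0 : s'.tm ≠ 0) : s'.tm = s.tm ∧ md ≠ 0 ∧ s.tm < sz s.lv ∧
    ∃ c : G, (∀ a < 32, c * F.j a * c⁻¹ = F.j a) ∧ c * φ s.tm * c⁻¹ = F.j 32 := by
  simp only [tmB, orr_iff, Nat.beq_eq] at e
  have h1 := e.resolve_left h0
  exact ⟨h1, v.tm (h1 ▸ h0)⟩

theorem leafM_sound {F : Cf G c} (v : Valid F.toFr s φ) (h : AuxOk F.toFr s φ a) {gm : List ℕ} (hg : GamS.{u} c s gm)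
    {ms : List St} (hs : AllS.{u} c ms) {gs ys : List ℕ} (hm : allL ms (isM s gs) = true) (hx : ∀ x ∈ gs, x < a.n)
    (hy : ∀ y ∈ ys, y < a.n) {g : G} (hc : CJ φ φ g gs ys) {cm : List Lc} (e : leafM s a gm ms cm gs ys = true) :
    F.toFr.Out := by
  simp only [leafM, an_iff, lt_iff, allL_iff, anyL_iff, all2_iff, frc_eq, Nat.beq_eq, len_eq, nth_eq] at e
  obtain ⟨q, -, -, h1, h2, h3, h4, h5⟩ := e
  rw [List.getD_eq_getElem _ _ h1] at h5
  have h6 := List.getElem_mem h1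
  have h7 := allL_iff.1 hm _ h6
  generalize ms[q.j] = s' at h5 h6 h7
  obtain ⟨lv, _ | ⟨m, mp⟩, tm⟩ := s'
  · cases h7
  change an _ (an _ (an _ _)) = true at h7
  simp only [an_iff, eqLv_iff, all2_beq, subMp_iff] at h7
  obtain ⟨rfl, rfl, k1, k2⟩ := h7
  obtain ⟨k3, v'⟩ := hg.gw v h3
  have R := v.rep
  refine hs.mem h6 G F _ ⟨v'.rep, v'.base, ?_, fun e => ?_⟩ trivial
  · rintro m' (_ | ⟨_, hm'⟩)
    · refine ⟨φ q.p * g, e5_comp (fun x b y e1 e2 => ?_) h4 h5⟩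
      have k4 := hc.ev R R (fun x h' => h.n ▸ hx x h') (fun x h' => h.n ▸ hy x h') b
      beta_reduce
      rw [← e1, ← e2.2, (h.cj v h2 (h.n ▸ ev_lt R.wf (fun x h' => h.n ▸ hy x h') b)).2, ← k4]
      group
    · exact v'.maps _ (k1 hm')
  · obtain ⟨k4, k5⟩ := e5_tm v' k2 e
    exact k4 ▸ k5

theorem leafT_sound {F : Cf G c} (v : Valid F.toFr s φ) (h : AuxOk F.toFr s φ a) {gm : List ℕ} (hg : GamS.{u} c s gm)
    {ts : List St} (hs : AllS.{u} c ts) (hm : allL ts (isT s) = true) {ys : List ℕ} (hy : ∀ y ∈ ys, y < a.n) {f : G}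
    (hc : CJ φ φ f (pows a.k) ys) (hf : f ∉ img s.lv φ) (h2 : f * f ∈ img s.lv φ) {ct : List Lc}
    (e : leafT s a gm ts ct ys = true) : F.toFr.Out := by
  have R := v.rep
  have hn : sz s.lv = 2 ^ a.k := h.n ▸ h.k
  have hg1 : ∀ x ∈ pows a.k, x < sz s.lv := fun x hx => by
    obtain ⟨i, hi, rfl⟩ := List.mem_map.1 hx
    exact hn ▸ Nat.pow_lt_pow_right one_lt_two (List.mem_range.1 hi)
  have hy' : ∀ y ∈ ys, y < sz s.lv := fun x h' => h.n ▸ hy x h'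
  have hβ : ∀ x < sz s.lv, f * φ x * f⁻¹ = φ (ev (mul s.lv) ys x) := fun x hx => by
    rw [← hc.ev R R hg1 hy' x, ev_pows R.wf hn.ge (hn ▸ hx)]
  have hβ' := ev_lt R.wf hy'
  obtain ⟨c₀, hc₀, e₀⟩ := R.mem_img.1 h2
  have hz : List.Forall₂ (fun x z => φ c₀ * φ x * (φ c₀)⁻¹ = φ z) (pows a.k) (ys.map (ev (mul s.lv) ys)) := by
    rw [List.forall₂_map_right_iff]
    exact e5_imp hc fun x _ y h' e => by rw [← hβ y (hy' y h'), ← e, e₀]; group
  have hz' : ∀ z ∈ ys.map (ev (mul s.lv) ys), z < sz s.lv := fun z h' => by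
    obtain ⟨y, -, rfl⟩ := List.mem_map.1 h'
    exact hβ' y
  simp only [leafT, mapK_eq, List.map_id] at e
  have h1 : 1 < sz s.lv := lt_of_lt_of_le (by norm_num) R.wf.ge
  have h3 : nth 0 (ys.map (ev (mul s.lv) ys)) 0 < sz s.lv ∧
      φ c₀ * φ 1 * (φ c₀)⁻¹ = φ (nth 0 (ys.map (ev (mul s.lv) ys)) 0) := by
    generalize ys.map (ev (mul s.lv) ys) = zs at hz hz'
    obtain ⟨k, hk⟩ := Nat.exists_eq_succ_of_ne_zero (n := a.k) fun e => by simp [hn, e] at h1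
    rw [hk, pows, List.range_succ_eq_map] at hz
    cases hz with | cons k1 _ => exact ⟨hz' _ (.head _), k1⟩
  have h4 := h.cos v (h.n ▸ h1) (h.n ▸ h3.1) e (h.n ▸ hc₀) h3.2
  simp only [an_iff, orr_iff, ne_iff, lt_iff, allL_iff, anyL_iff, frc_eq, Nat.beq_eq, len_eq, nth_eq, cnd_eq] at h4
  rw [if_pos (all2_iff.2 (e5_imp hz fun x k1 z k2 e => by
    rw [Nat.beq_eq]
    refine R.inj _ (R.wf.lt hc₀ (hg1 x k1)) _ (R.wf.lt (hz' z k2) hc₀) ?_
    rw [R.map _ hc₀ _ (hg1 x k1), R.map _ (hz' z k2) _ hc₀, ← e, inv_mul_cancel_right]))] at h4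
  obtain ⟨q, -, -, k1, k2, k3, k4, k5⟩ := (h4.resolve_left (not_not.2 (R.inj _ (hβ' _) _ hc₀ (by
    rw [← hβ _ hc₀, e₀]; group)))).resolve_left Bool.false_ne_true
  rw [List.getD_eq_getElem _ _ k1] at k4 k5
  have h6 := List.getElem_mem k1
  have h7 := allL_iff.1 hm _ h6
  generalize ts[q.j] = s' at k4 k5 h6 h7
  obtain ⟨_ | ⟨⟨n, B, c'⟩, lv⟩, mp, tm⟩ := s'
  · cases h7
  change an _ (an _ (an _ (an _ (an _ (an _ (an _ _)))))) = true at h7
  simp only [an_iff, eqLv_iff, subMp_iff, lt_iff, allL_iff, Nat.beq_eq, Nat.ble_eq] at h7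
  obtain ⟨rfl, rfl, m1, m2, m3, m4, m5, m6⟩ := h7
  obtain ⟨m7, v'⟩ := hg.gw v k3
  have k2' : q.p < sz s.lv := h.n ▸ k2
  have R' := v'.rep.ext m1 m2 (consB_sound (m1.trans (by norm_num)) m3) (f := φ q.p * f) (fun e => hf (by
      obtain ⟨x, hx, e⟩ := v'.rep.mem_img.1 e
      rw [← inv_mul_eq_iff_eq_mul.2 e]
      exact mul_mem (inv_mem (R.mem_img.2 ⟨_, k2', rfl⟩)) (R.mem_img.2 ⟨_, m7 x hx, rfl⟩))) (by
      rw [← show _ = gw gm q.w c' from k4, R.map _ (R.wf.lt k2' (hβ' _)) _ hc₀, R.map _ k2' _ (hβ' _), ← hβ _ k2', e₀]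
      group) fun i hi => by
      rw [← show _ = gw gm q.w (lk B (2 ^ i)) from k5 _ (List.mem_map.2 ⟨i, List.mem_range.2
        ((Nat.pow_lt_pow_iff_right one_lt_two).1 (hn ▸ hi)), rfl⟩), (h.cj v k2 (h.n ▸ hβ' _)).2, ← hβ _ (m7 _ hi)]
      group
  refine hs.mem h6 G F _ ⟨R', fun x hx => (if_pos (hx.trans_le R.wf.ge)).trans (v'.base x hx), fun m hm' => ?_,
    fun e => ?_⟩ trivial
  · obtain ⟨g, m8⟩ := v'.maps m (m4 hm')
    exact ⟨g, e5_imp m8 fun x hx y hy e => by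
      simpa only [if_pos ((m6 m hm').1 x hx), if_pos ((m6 m hm').2 y hy)] using e⟩
  · obtain ⟨m8, m9, n1, n2⟩ := e5_tm v' m5 e
    refine ⟨m9, ?_, ?_⟩
    · rw [m8, sz_cons]; omega
    · rwa [m8, if_pos n1]

end CfsgLib.L3E
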