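import Cfsg.Agent.Lib.L3E.E5
import Cfsg.Agent.Lib.L3E.Frat
import Cfsg.Agent.Lib.L3E.E4a

/-! E7: Frattini steps, the element `ρ` (plans/DIH8.md, part II) -/

set_option autoImplicit false

namespace CfsgLib.L3E

open Subgroup CfsgLib.Tech CfsgLib.MOrb Cfsg

universe u

variable {G : Type u} [Group G] [Finite G] {md : ℕ} {F : Fr G md} {c : Cfg} {s s' : St} {φ ψ : ℕ → G} {a : Aux} {l l' : Lv}

private theorem e7_left {R : ℕ → ℕ → Prop} {L M : List ℕ} (h : List.Forall₂ R L M) {x : ℕ} (hx : x ∈ L) :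
    ∃ y, R x y := by
  induction h with
  | nil => simp at hx
  | cons h _ ih =>
    rcases List.mem_cons.1 hx with rfl | hx
    · exact ⟨_, h⟩
    · exact ih hx

theorem AuxS.fr {x k my : ℕ} {w0 w gs us : List ℕ} {lv : List Lvl} {gm : List ℕ} {ms : List St} {cm : List Lc}
    (h : AuxS.{u} c s x a) (hg : GamS.{u} c s gm) (hm : AllS.{u} c ms)
    (b : frB s a k w0 w gs us my lv gm ms cm = true) : Sound.{u} c s x := by

  have hgam := hg
  intro G _ _ F φ v hy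
  have h := h G F φ v hy
  simp only [frB, an_iff, orr_iff, Nat.beq_eq, mapK_eq, List.map_id, allL_iff (p := fun x => lt x a.n), lt_iff,
    frc_eq, List.map_map, Function.comp_def, Nat.succ_eq_add_one] at b
  obtain ⟨hk, e1, e2, e3, e4, e5, e6, e7, e8, e9, e10⟩ := b
  simp only [an_iff, orr_iff, Nat.beq_eq, allL_iff, allN_iff, ne_iff, ex_not, all2_iff, List.forall_mem_map,
    List.forall₂_map_right_iff, List.forall₂_same] at e3 e4 e5 e6 e7 e8
  have hk' : k = 1 ∨ k = 2 ∨ k = 3 := hk.imp_right .inl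
  obtain ⟨g0, -, hg0⟩ := h.apk v w0
  obtain ⟨g, hg, hg'⟩ := h.apk v w
  have h32 := h.ex_32 v
  have f1 : ∀ x ∈ gs ++ lv.map Lvl.g, x < a.n := fun x hx => by
    rcases List.mem_append.1 hx with hx | hx
    · exact e1 x hx
    · obtain ⟨e, he, rfl⟩ := List.mem_map.1 hx
      exact ex_lvB_lt e2 e he
  have e1' : ∀ x ∈ gs, x < sz s.lv := h.n ▸ e1
  have f1' : ∀ x ∈ gs ++ lv.map Lvl.g, x < sz s.lv := h.n ▸ f1
  obtain ⟨-, c2⟩ := ex_word hg e1 fun x hx => (e5 x hx).1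
  have c3 : ∀ x ∈ gs, g * φ x * g⁻¹ ∈ gp φ gs := fun x hx => by
    rw [(c2 x hx).2]; exact (ex_mkM v.rep e1' (e5 x hx).2).2
  have hR : SC (gp φ gs) := (F.toFr.scX hk).of_conj g0⁻¹ fun x hx => ⟨g0 * x * g0⁻¹, by
    rw [← v.ex_X hk'] at hx
    refine cj_le_iff.1 (map_le_iff_le_comap.2 (ex_gp_le fun y hy => ?_)) x hx
    obtain ⟨z, -, z1, z2⟩ := hg0 y ((ex_xg hk' y hy).1.trans_le h32) _ (e3 y hy)
    change g0 * φ y * g0⁻¹ ∈ gp φ gs
    rw [z1]
    exact (ex_mkM v.rep e1' z2).2, by group⟩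
  have sub : φ '' {x | x ∈ gs} ⊆ φ '' {x | x ∈ gs ++ lv.map Lvl.g} :=
    Set.image_mono fun x hx => List.mem_append_left _ hx
  obtain ⟨g', g1, g2⟩ := frat hR sub (v.rep.isPGroup.to_le (v.rep.gp_le f1')) (by
      rintro _ ⟨y, hy, rfl⟩ _ ⟨r, hr, rfl⟩
      rw [← (h.cj v (f1 y hy) (e1 r hr)).2]
      exact (ex_mkM v.rep e1' (e4 y hy r hr)).2) (g := g) (by rintro _ ⟨r, hr, rfl⟩; exact c3 r hr) (by
      rintro _ ⟨y, hy, rfl⟩
      rcases List.mem_append.1 hy with hy' | hy'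
      · exact ⟨g * φ y * g⁻¹, closure_mono sub (c3 y hy'), fun r _ => by group⟩
      · obtain ⟨u, u1, u2⟩ := e7_left e6 hy'
        obtain ⟨u3, u4⟩ := ex_mkM v.rep f1' u1
        refine ⟨φ u, u4, ?_⟩
        rintro _ ⟨r, hr, rfl⟩
        obtain ⟨z, -, z1, z2⟩ := hg' _ (h.cj v (f1 y hy) (e1 r hr)).1 _ (u2 r hr)
        rw [← (h.cj v (f1 y hy) (e1 r hr)).2, z1, ← Nat.beq_eq.mp z2, (h.cj v (h.n ▸ u3) (c2 r hr).1).2, (c2 r hr).2])
  obtain ⟨zs, z1, z2, z3⟩ := dfsP_sound v h (g := g') (fun e he => by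
      obtain ⟨y, y1, y2, y3⟩ := v.rep.mem_of_closed f1' (p := fun x => my ≠ 0 → tb my x = true)
        (fun h0 => (e8.resolve_left h0).1)
        (fun x hx p y hy h0 => ((e8.resolve_left h0).2 x (h.n ▸ hx)).resolve_left (not_not.2 (p h0)) y hy)
        (conj_mem_of_mem_normalizer g1 (ex_gp (List.mem_append_right _ (List.mem_map_of_mem he))))
      refine ⟨y, h.n ▸ y1, y3.symm, fun h => absurd h (e7 e he).1, fun h0 => ?_⟩
      have h1 := (e7 e he).2.resolve_left h0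
      rw [h1] at h0 ⊢
      exact y2 h0) e1 (by simpa using fun x hx => (c2 x hx).1)
    (List.forall₂_map_right_iff.2 (List.forall₂_same.2 fun x hx => (g2 _ ⟨x, hx, rfl⟩).trans (c2 x hx).2)) e2 e10
  exact leafM_sound v h hgam hm e9 f1 z1 z2 z3

theorem AuxS.fr2 {x r q : ℕ} {w us : List ℕ} {lv : List Lvl} {gm : List ℕ} {ts : List St} {ct : List Lc}
    (h : AuxS.{u} c s x a) (hg : GamS.{u} c s gm) (ht : AllS.{u} c ts)
    (b : fr2B s a r w us q lv gm ts ct = true) : Sound.{u} c s x := by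

  have hgam := hg
  intro G _ _ F φ v hy
  have h := h G F φ v hy
  simp only [fr2B, an_iff, Nat.ble_eq, mapK_eq, List.map_id, lt_iff, all2_beq,
    frc_eq, List.map_map, Function.comp_def, Nat.succ_eq_add_one, Nat.pow_eq] at b
  obtain ⟨hr, e1, e2, e3, e4, e5, e6, e7, e8, e9, e10, e11⟩ := b
  simp only [an_iff, Nat.beq_eq, Nat.ble_eq, allL_iff, ne_iff, lt_iff, ex_not, all2_iff, List.forall_mem_map,
    List.forall₂_map_right_iff, List.forall₂_same] at e3 e4 e5 e7 e9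
  obtain ⟨g, hg, hg'⟩ := h.apk v w
  have rk : r ≤ a.k := by
    have := congrArg List.length e1
    simp [pows] at this
    omega
  have rn : 2 ^ r ≤ sz s.lv := by rw [← h.n, h.k]; exact Nat.pow_le_pow_right (by norm_num) rk
  have l1 := h.ex_pows_lt rk
  have l2 := h.ex_pows_lt le_rfl
  have mR : ∀ x < 2 ^ r, φ x ∈ gp φ (pows r) := v.rep.mem_gp_of_lt rn
  obtain ⟨-, c2⟩ := ex_word hg l1 fun x hx => (e4 x hx).1
  have c3 : ∀ x ∈ pows r, g * φ x * g⁻¹ ∈ gp φ (pows r) := fun x hx => by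
    rw [(c2 x hx).2]
    exact mR _ ((Nat.pred_lt (e4 x hx).1).trans_le (e4 x hx).2)
  have hR : SC (gp φ (pows r)) := (F.toFr.scX (.inl rfl)).mono fun x hx => by
    obtain ⟨y, hy, rfl⟩ := F.toFr.mem_X1.1 hx
    rw [← v.base y (by omega)]
    exact mR y (hy.trans_le (le_trans (by norm_num) (Nat.pow_le_pow_right (n := 2) (by norm_num) hr)))
  have sub : φ '' {x | x ∈ pows r} ⊆ φ '' {x | x ∈ pows a.k} :=
    Set.image_mono fun x hx => e1 ▸ List.mem_append_left _ hx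
  have hY : closure (φ '' {x | x ∈ pows a.k}) = img s.lv φ := h.ex_pows v
  obtain ⟨g', g1, g3, g2⟩ := frat2 hR sub (hY ▸ v.rep.isPGroup) (by
      rintro _ ⟨y, hy, rfl⟩ _ ⟨x, hx, rfl⟩
      rcases List.mem_append.1 (e1 ▸ hy :) with hy' | hy'
      · exact mul_mem (mul_mem (ex_gp hy') (ex_gp hx)) (inv_mem (ex_gp hy'))
      · obtain ⟨e, he, rfl⟩ := List.mem_map.1 hy'
        rw [← (h.cj v (l2 _ hy) (l1 x hx)).2]
        exact mR _ (e3 e he x hx)) (g := g) (by rintro _ ⟨r, hr, rfl⟩; exact c3 r hr) (by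
      rintro _ ⟨y, hy, rfl⟩
      rcases List.mem_append.1 (e1 ▸ hy :) with hy' | hy'
      · exact ⟨g * φ y * g⁻¹, closure_mono sub (c3 y hy'), fun r _ => by group⟩
      · obtain ⟨u, u1, u2⟩ := e7_left e5 hy'
        refine ⟨φ u, hY ▸ h.ex_mem' v u1, ?_⟩
        rintro _ ⟨r, hr, rfl⟩
        obtain ⟨z, -, z1, z2⟩ := hg' _ (h.cj v (l2 y hy) (l1 r hr)).1 _ (u2 r hr)
        rw [← (h.cj v (l2 y hy) (l1 r hr)).2, z1, ← Nat.beq_eq.mp z2, (h.cj v u1 (c2 r hr).1).2, (c2 r hr).2])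
    ⟨φ q, hY ▸ h.ex_mem' v e6, by
      rintro _ ⟨x, hx, rfl⟩
      obtain ⟨z, -, z1, z2⟩ := hg' _ (c2 x hx).1 _ (e7 x hx)
      rw [(c2 x hx).2, z1, ← Nat.beq_eq.mp z2, (h.cj v e6 (l1 x hx)).2]⟩
  rw [hY] at g1 g3
  have g4 : ∀ x ∈ pows r, g' * φ x * g'⁻¹ = φ (apw s.lv a w (x + 1)).pred := fun x hx =>
    (g2 _ ⟨x, hx, rfl⟩).trans (c2 x hx).2
  obtain ⟨zs, z1, z2, z3⟩ := dfsP_sound v h (g := g') (fun e he => by
      obtain ⟨y, y1, y2⟩ := (h.ex_mem v).1 (conj_mem_of_mem_normalizer g1 (h.ex_mem' v (ex_lvB_lt e2 e he)))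
      exact ⟨y, y1, y2.symm, fun h => absurd h (e9 e he).1, fun h0 => absurd (e9 e he).2 h0⟩)
    l1 (by simpa using fun x hx => (c2 x hx).1) (List.forall₂_map_right_iff.2 (List.forall₂_same.2 g4)) e2 e11
  have e1' : pows r ++ lv.map Lvl.g = pows a.k := e1
  rw [e1'] at z2
  refine leafT_sound v h hgam ht e10 z1 z2 (fun hf => ?_) g3 z3
  obtain ⟨p, hp, rfl⟩ := (h.ex_mem v).1 hf
  obtain ⟨r, rfl⟩ : ∃ r', r = r' + 1 := ⟨r - 1, by omega⟩
  have o1 : 1 ∈ pows (r + 1) := List.mem_map.2 ⟨0, by simp, rfl⟩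
  have o2 : nth 0 ((pows (r + 1)).map fun x => (apw s.lv a w (x + 1)).pred) 0 = (apw s.lv a w (1 + 1)).pred := by
    simp [nth_eq, pows, List.range_succ_eq_map]
  rw [o2] at e8
  have := h.cos v (l1 1 o1) (c2 1 o1).1 e8 hp (g4 1 o1)
  simp only [ex_not, all2_iff, List.forall₂_map_right_iff, List.forall₂_same, Nat.beq_eq] at this
  exact this fun x hx => h.ex_inj v (h.cj v hp (l1 x hx)).1 (c2 x hx).1 ((h.cj v hp (l1 x hx)).2.trans (g4 x hx))

theorem AuxS.rho {x r : ℕ} {ms : List St} (h : AuxS.{u} c s x a) (hm : AllS.{u} c ms) (b : rhoB c s a r ms = true) :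
    Sound.{u} c s x := by

  intro G _ _ F φ v hy
  have h := h G F φ v hy
  simp only [rhoB, an_iff, orr_iff, Nat.beq_eq, Nat.ble_eq, allL_iff, anyL_iff, allN_iff, ne_iff, lt_iff, frc_eq,
    eqLv_iff, subMp_iff, Nat.add_eq] at b
  obtain ⟨e1, e2, e3, e4, e5⟩ := b
  have h32 := h.ex_32 v
  obtain ⟨m0, g, g1, y, hy, g2⟩ := F.toFr.rho (r := φ r) (v.ex_one ▸ (h.ex_com v e1 (by omega)).1 e3) (fun hr => by
      obtain ⟨y, hy, e⟩ := F.toFr.mem_X3.1 hr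
      have := h.ex_inj v (by omega) e1 ((v.base y hy).trans e)
      omega) (v.rep.isPGroup.to_le (sup_le v.ex_X3 (zpowers_le.2 (h.ex_mem' v e1))))
  have s64 : sz (lvT c.md) = 64 ∧ ∀ y < 32, mul (lvT c.md) (32 + y) (32 + y) < 32 := by
    generalize c.md = m at m0
    match m with
    | 0 => exact absurd rfl m0
    | 1 => decide +kernel
    | _ + 2 => exact (by decide +kernel : sz (lvT 2) = 64 ∧ ∀ y < 32, mul (lvT 2) (32 + y) (32 + y) < 32)
  have y64 : 32 + y < sz (lvT c.md) := by omega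
  have g3 : g * φ r * g⁻¹ = F.j (32 + y) := by
    rw [g2, add_comm]; exact (F.rep.add (i := 5) hy (by omega)).symm
  have back : ∀ x < a.n, ∀ z < 32, g * φ x * g⁻¹ = F.j z → x = z := fun x hx z hz e =>
    h.ex_inj v hx (by omega) (by rw [v.base z hz]; simpa using e.trans (g1 z hz).symm)
  rcases (e5.resolve_left m0) y hy with e6 | ⟨u, hu, e6⟩ | ⟨s', hs', e6⟩
  · refine absurd (back _ (h.ex_mul v e1 e1).1 _ (s64.2 y hy) ?_) e6
    rw [(h.ex_mul v e1 e1).2, F.rep.map _ y64 _ y64, ← g3]; group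
  · have u32 : u < 32 := by simp at hu; omega
    obtain ⟨c1, c2⟩ := h.cj v e1 (u32.trans_le h32)
    obtain ⟨z, hz, e7⟩ := F.toFr.mem_X3.1 (conj_mem_of_mem_normalizer
      (F.toFr.norm_X3 (F.rep.mem_img.2 ⟨_, y64, rfl⟩)) (F.toFr.mem_X3.2 ⟨u, u32, rfl⟩))
    have e8 := back _ c1 z hz (by rw [c2, e7, ← g3, ← g1 u u32, v.base u u32]; group)
    rw [e8] at e6
    refine absurd (F.rep.inj _ (F.rep.wf.lt y64 (Fr.lt u32)) _ (F.rep.wf.lt (Fr.lt hz) y64) ?_)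
      (e6.resolve_left (by omega))
    rw [F.rep.map _ y64 _ (Fr.lt u32), F.rep.map _ (Fr.lt hz) _ y64, e7]; group
  · obtain ⟨a1, a2, a3⟩ := e4 s' hs'
    refine hm.mem hs' G F φ ⟨a1 ▸ v.rep, v.base, fun m hm => v.maps m (a2 hm), fun _ =>
      ⟨m0, by rw [a1, ← h.n]; exact a3, g, g1, ?_⟩⟩ trivial
    rw [← e6, (h.ex_mul v (by omega) a3).2, v.base y hy] at g2
    calc _ = (g * F.j y * g⁻¹)⁻¹ * (g * (F.j y * φ s'.tm) * g⁻¹) := by group
      _ = _ := by rw [g2, g1 y hy, inv_mul_cancel_left]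

end CfsgLib.L3E
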