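import Cfsg.Agent.Lib.L3E.Eng

/-! Counting arguments for the certificate checker (plans/DIH8.md, part II): definitions. -/

set_option autoImplicit false

namespace CfsgLib.L3E

open Subgroup CfsgLib.Tech CfsgLib.MOrb Cfsg

noncomputable section

/-- certificate of a counting argument at `u = rp i`: `w` lists elements of `C(u)`, the type of `x` is the triple of
the classes of `x`, `u x`, `x x` (`0` if the flag is off), `R` lists the types with three masks of excluded values -/
structure Hc where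
  i : ℕ
  f2 : Bool
  f3 : Bool
  w : List ℕ
  R : List ((ℕ × ℕ × ℕ) × ℕ × ℕ × ℕ)
  js : List ℕ

/-- `p` holds for the members of the mask below `m` -/
def mskB (m M : ℕ) (p : ℕ → Bool) : Bool := orr (Nat.beq M 0) (allN m fun k => cnd (tb M k) (p k) true)

/-- fewer than `b` members of the list satisfy `p` -/
def cntB (L : List ℕ) (p : ℕ → Bool) : ℕ → Bool :=
  List.rec (motive := fun _ => ℕ → Bool) (fun b => ne b 0) (fun y _ r b =>
    cnd (p y) (Nat.rec (motive := fun _ => Bool) false (fun b' _ => r b') b) (r b)) L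

def hsB (l : Lv) (a : Aux) (q : Hc) (m : ℕ) (p : ℕ → ℕ → Bool) : Bool := frc (lk a.rp q.i) fun u =>
  an (lt q.i a.nc) <| an (incB l a.n u q.w 0) <|
  an (allL q.w fun x => frc (lk a.ci x) fun c1 => frc (cnd q.f2 (lk a.ci (mul l u x)) 0) fun c2 =>
    frc (cnd q.f3 (lk a.ci (mul l x x)) 0) fun c3 =>
      anyL q.R fun r => an (Nat.beq r.1.1 c1) (an (Nat.beq r.1.2.1 c2) (Nat.beq r.1.2.2 c3))) <|
  allL q.R fun r => an (mskB m r.2.1 (p r.1.1)) (an (mskB m r.2.2.1 (p r.1.2.1)) (mskB m r.2.2.2 (p r.1.2.2)))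

/-- the values are not excluded by some type -/
def opn (q : Hc) (c1 c2 c3 : ℕ) : Bool := anyL q.R fun r =>
  cnd (tb r.2.1 c1) false (cnd (an q.f2 (tb r.2.2.1 c2)) false (cnd (an q.f3 (tb r.2.2.2 c3)) false true))

/-- no embeddings from the class `q.i` to the classes `q.js` -/
def hpB (s : St) (a : Aux) (f : ℕ) (cs : List Hc) : Bool :=
  an (allL cs fun q => an (hsB s.lv a q a.nc (nfT a)) (allL q.js fun j => an (lt j a.nc) <| an (ne (lk a.cx j) 0) <|
    frc (lk a.rp j) fun v => cntB (a.cli j) (fun y => frc (lk a.ci y) fun c1 =>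
      frc (cnd q.f2 (lk a.ci (mul s.lv v y)) 0) fun c2 => frc (cnd q.f3 (lk a.ci (mul s.lv y y)) 0) fun c3 =>
        opn q c1 c2 c3) (len q.w)))
  (Nat.beq f (cs.foldl (fun f q => q.js.foldl (fun f j => Nat.lor f (Nat.shiftLeft 1 (Nat.add (Nat.mul q.i a.nc) j))) f) a.ne))

/-- no embedding into `T` taking `rp q.i` to `t` -/
def htB (c : Cfg) (s : St) (a : Aux) (q : Hc) : Bool := frc (sz (lvT c.md)) fun N =>
  an (hsB s.lv a q N fun i y => clashT c a (lk a.rp i) y) (mapK id (List.range N) fun L => cntB L (fun y =>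
    frc (mul (lvT c.md) 1 y) fun c2 => frc (mul (lvT c.md) y y) fun c3 => opn q y c2 c3) (len q.w))

def up2B (c : Cfg) (s : St) (a : Aux) (d : ℕ) (qs : List Hc) : Bool :=
  an (allL qs (htB c s a)) (allN a.nc fun i => frc (lk d i) fun v =>
    orr (Nat.beq v (lk a.ds i)) (an (Nat.beq v 1) (anyL qs fun q => Nat.beq q.i i)))

def k7B (c : Cfg) (s : St) (a : Aux) (q : Hc) : Bool := an (Nat.beq (lk a.ds q.i) 2) (htB c s a q)

end

end CfsgLib.L3E
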