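import Cfsg.Agent.Lib.L3E.Eng2

/-! Cheaper checks in small pieces (plans/DIH8.md, part II): definitions. -/

set_option autoImplicit false

namespace CfsgLib.L3E

open Subgroup CfsgLib.Tech CfsgLib.MOrb Cfsg

universe u

noncomputable section

/-! ### the tables of a tower -/

/-- `p` holds on `[m, m')` -/
def rngB (p : ℕ → Bool) (m m' : ℕ) : Bool := allN (Nat.sub m' m) fun i => frc (Nat.add m i) p
def Rng (p : ℕ → Bool) (m : ℕ) : Prop := ∀ x < m, p x = true

/-- exactly `b` numbers below `n` satisfy `p` -/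
def cntE (n : ℕ) (p : ℕ → Bool) : ℕ → Bool :=
  Nat.rec (motive := fun _ => ℕ → Bool) (fun b => Nat.beq b 0) (fun x r b =>
    cnd (p x) (Nat.rec (motive := fun _ => Bool) false (fun b' _ => r b') b) (r b)) n

/-- the length plus the second argument -/
def lenK (L : List ℕ) : ℕ → ℕ := List.rec (motive := fun _ => ℕ → ℕ) (fun c => c) (fun _ _ r c => frc (Nat.succ c) r) L

/-- `ws` are words in `gs` for the generators `2 ^ e` -/
def tw0B (l : Lv) (a : Aux) (gs : List ℕ) (ws : List (List ℕ)) (n nc : ℕ) : Bool :=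
  an (Nat.beq a.n n) <| an (Nat.beq a.nc nc) <| an (Nat.beq a.n (sz l)) <| an (Nat.beq a.n (Nat.pow 2 a.k)) <|
  an (Nat.beq (Nat.add (Nat.add a.ds a.lam) (Nat.add a.nf a.ne)) 0) <|
  an (Nat.beq (lk a.rp (lk a.ci 1)) 1) <| an (allL gs fun g => lt g a.n) <|
  allN a.k fun e => an (allL (nth [] ws e) fun i => lt i (len gs)) (Nat.beq (ewB l gs (nth [] ws e)) (Nat.pow 2 e))

def elB (l : Lv) (a : Aux) (gs : List ℕ) (x : ℕ) : Bool :=
  frc (lk a.iv x) fun i => frc (lk a.ci x) fun j => frc (lk a.cp x) fun p =>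
    an (lt i a.n) (an (Nat.beq (mul l x i) 0) (an (lt j a.nc) (an (lt p a.n)
      (an (Nat.beq (mul l p x) (mul l (lk a.rp j) p)) (allL gs fun g => Nat.beq (lk a.ci (cj l a g x)) j)))))

/-- the order of the centraliser is computed from the size of the class -/
def clB (l : Lv) (a : Aux) (i : ℕ) : Bool := frc (lk a.rp i) fun v => frc (lk a.cn i) fun k =>
  an (lt v a.n) <| an (Nat.beq (lk a.ci v) i) <| an (ordB l (lk a.od i) v) <|
  cnd (Nat.beq k 0) (Nat.beq (lk a.cx i) 0) <| frc (Nat.div a.n k) fun b => an (Nat.beq (Nat.mul k b) a.n) <|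
    an (cntE a.n (fun x => Nat.beq (lk a.ci x) i) b) <|
    orr (Nat.beq (lk a.cx i) 0) (an (incB l a.n v (a.cli i) 0) (Nat.beq (lenK (a.cli i) 0) k))

def Tow (l : Lv) (a : Aux) : Prop := ∀ (G : Type u) [Group G] [Finite G] (φ : ℕ → G), Rep l φ → towB l a = true

/-! ### extension with reduction modulo inner automorphisms -/

/-- a conjugate of `ys` is listed in `sts`; `cs` lists (key, conjugating element, index) -/
def cov (s : St) (a : Aux) (sts : List (List ℕ)) (cs : List (ℕ × ℕ × ℕ)) (ys : List ℕ) : Bool :=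
  frc (hs ys) fun h => anyL cs fun e => an (Nat.beq e.1 h) <| an (lt e.2.1 a.n) <| an (lt e.2.2 (len sts)) <|
    all2 ys (fun y z => Nat.beq (cj s.lv a e.2.1 y) z) (nth [] sts e.2.2)

def finB (s : St) (a : Aux) (gm : List ℕ) (ts : List St) (ct : List Lc) (lv : List Lvl) (d : ℕ) (sts : List (List ℕ)) :
    Bool := allL sts (dfsP s.lv a [] (leafT s a gm ts ct) (lv.drop d))

def stpB (s : St) (a : Aux) (lv : List Lvl) (d d' : ℕ) (sts sts' : List (List ℕ)) (cs : List (ℕ × ℕ × ℕ)) : Bool :=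
  an (Nat.ble d d') (allL sts (dfsP s.lv a [] (cov s a sts' cs) ((lv.take d').drop d)))

/-- the searches from the members of the list, which are images of `1` and the first `d` levels, succeed -/
inductive Phs (s : St) (a : Aux) (gm : List ℕ) (ts : List St) (ct : List Lc) (lv : List Lvl) :
    ℕ → List (List ℕ) → Prop
  | fin {d : ℕ} {sts : List (List ℕ)} : finB s a gm ts ct lv d sts = true → Phs s a gm ts ct lv d sts
  | app {d : ℕ} {s1 s2 : List (List ℕ)} : Phs s a gm ts ct lv d s1 → Phs s a gm ts ct lv d s2 →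
      Phs s a gm ts ct lv d (s1 ++ s2)
  | stp {d d' : ℕ} {sts sts' : List (List ℕ)} {cs : List (ℕ × ℕ × ℕ)} : stpB s a lv d d' sts sts' cs = true →
      Phs s a gm ts ct lv d' sts' → Phs s a gm ts ct lv d sts

/-- `extB` without the searches -/
def ext2B (c : Cfg) (s : St) (a : Aux) (h e : ℕ) (lv : List Lvl) (ts : List St) (s1 s2 : List (List ℕ)) : Bool :=
  mapK id (pows a.k) fun gs =>
  an (Nat.ble h 4) <| an (all2 (1 :: lv.map Lvl.g) Nat.beq gs) <| an (lvB s.lv a lv [1]) <|
  an (allL lv fun v => an (cnd v.lst false true) (orr (Nat.beq v.msk 0)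
    (anyL (kinds h) fun h' => an (memL v.g (xg h')) (Nat.beq v.msk (xm h'))))) <|
  an (orr (Nat.beq h 0) (an (Nat.beq ((List.range 32).filter (orbm c h).testBit).length (Nat.pow 2 e))
    (an (lt a.n (Nat.mul (cnd (Nat.beq h 3) (sz (lvT c.md)) 32) (Nat.pow 2 e)))
      (allL (kinds h) fun h' => allL gs fun g => allL (xg h') fun x => tb (xm h') (cj s.lv a g x))))) <|
  an (allL ts (isT s)) <|
  an (allN a.nc fun j => frc (lk a.rp j) fun u => orr (Nat.beq u 1) <| orr (neT a (lk a.ci 1) j) <|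
    orr (an (ne h 0) (cnd (tb (orbm c h) u) false true)) (anyL s1 (all2 [u] Nat.beq)))
  (orr (Nat.beq c.md 0) <| orr (ne s.tm 0) <| orr (an (ne h 0) (ne h 3)) (anyL s2 (all2 [1, 2, 6, 16, 8] Nat.beq)))

end

end CfsgLib.L3E
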