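import Cfsg.Agent.Lib.L3E.Loc

/-! SYM: symmetries of the frame (plans/DIH8.md) -/

set_option autoImplicit false
set_option linter.unusedSectionVars false

namespace CfsgLib.L3E

open Subgroup CfsgLib.Tech CfsgLib.MOrb Cfsg

variable {G : Type*} [Group G] [Finite G] {md : ℕ}

/-- an involutory automorphism `p` of the coded tower which respects the labels -/
def SymP (md : ℕ) (p : ℕ → ℕ) : Prop :=
  (∀ x < sz (lvT md), p x < sz (lvT md) ∧ p (p x) = x) ∧
    (∀ x < sz (lvT md), ∀ y < sz (lvT md), p (mul (lvT md) x y) = mul (lvT md) (p x) (p y) ∧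
      (kcl md (p x) = kcl md (p y) → kcl md x = kcl md y)) ∧ p 1 = 1

noncomputable instance decSymP (md : ℕ) (p : ℕ → ℕ) : Decidable (SymP md p) := by unfold SymP; infer_instance

omit [Finite G] in
/-- the frame re-coordinatised along `p` -/
theorem Fr.symP (F : Fr G md) {p : ℕ → ℕ} (hp : SymP md p) (σ τ : G)
    (hσ : ∀ a < 16, σ * F.j (p a) * σ⁻¹ = F.j (p (lk sgT a)))
    (hτ : ∀ a < 32, lk taT a < 32 → τ * F.j (p a) * τ⁻¹ = F.j (p (lk taT a)))
    (hf : md = 1 → IsConj (F.j (p 4)) (F.j (p 32)) ∧ IsConj (F.j (p 5)) (F.j (p 33))) :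
    ∃ F' : Fr G md, F'.K = F.K ∧ ∀ a, F'.j a = F.j (p a) := by
  obtain ⟨h1, h2, h3⟩ := hp
  have himg : img (lvT md) (fun a => F.j (p a)) = img (lvT md) F.j := by
    unfold img
    congr 1
    ext g
    constructor
    · rintro ⟨x, hx, rfl⟩
      exact ⟨p x, (h1 x hx).1, rfl⟩
    · rintro ⟨x, hx, rfl⟩
      exact ⟨p x, (h1 x hx).1, by simp only [(h1 x hx).2]⟩
  refine ⟨{ j := fun a => F.j (p a)
            rep := ⟨F.rep.wf, fun x hx y hy => ?_, fun x hx y hy h => ?_⟩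
            K := F.K, nK := F.nK, sK := F.sK, cK := F.cK
            gK := by simp only [h3]; exact F.gK
            rk := F.rk
            syl := by simp only [h3, himg]; exact F.syl
            σ := σ, τ := τ, hσ := hσ, hτ := hτ, fus := hf
            nof := fun c hc a ha b hb h => ?_ }, rfl, fun _ => rfl⟩
  · simp only [(h2 x hx y hy).1]
    exact F.rep.map _ (h1 x hx).1 _ (h1 y hy).1
  · have := F.rep.inj _ (h1 x hx).1 _ (h1 y hy).1 h
    rw [← (h1 x hx).2, this, (h1 y hy).2]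
  · simp only [h3] at hc
    exact (h2 a ha b hb).2 (F.nof c hc _ (h1 a ha).1 _ (h1 b hb).1 h)

/-- `s ↦ t s`, `ρ ↦ t ρ` -/
def pTw (x : ℕ) : ℕ := Nat.xor x ((x / 4 + x / 32) % 2)

theorem symP_tw1 : SymP 1 pTw := by decide +kernel

/-- SYM: the symmetry `s ↦ t s`, `ρ ↦ t ρ` -/
theorem Fr.twist (F : Fr G 1) : ∃ F' : Fr G 1, F'.K = F.K ∧ F'.j 1 = F.j 1 ∧ F'.j 2 = F.j 2 ∧
    F'.j 4 = F.j 5 ∧ F'.j 5 = F.j 4 := by
  have a1 : ∀ a < 16, pTw a < 16 ∧ lk sgT (pTw a) = pTw (lk sgT a) := by decide +kernel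
  have a2 : ∀ a < 32, lk taT a < 32 → pTw a < 32 ∧ lk taT (pTw a) < 32 ∧ lk taT (pTw a) = pTw (lk taT a) := by
    decide +kernel
  obtain ⟨F', hK, hj⟩ := F.symP symP_tw1 F.σ F.τ
    (fun a ha => by rw [F.hσ _ (a1 a ha).1, (a1 a ha).2])
    (fun a ha hb => by rw [F.hτ _ (a2 a ha hb).1 (a2 a ha hb).2.1, (a2 a ha hb).2.2]) fun h => (F.fus h).symm
  exact ⟨F', hK, hj 1, hj 2, hj 4, hj 5⟩

end CfsgLib.L3E
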