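import Cfsg.Agent.Lib.L3E.Loc
import Cfsg.Agent.Lib.TIE.Xtr
import Cfsg.Agent.Lib.Semi4.Bas

/-! TRF: transfer, extremal conjugates, parity (plans/DIH8.md) -/

set_option autoImplicit false

namespace CfsgLib.L3E

open Subgroup CfsgLib.Tech CfsgLib.MOrb Cfsg

variable {G : Type*} [Group G] [Finite G]

open CfsgLib.Transfer in
private theorem trf_tp0 {S M R : Subgroup G} (hi : ¬ 2 ∣ S.index) (hQi : M.relIndex S = 2) {u : G}
    (hU : IsPGroup 2 (zpowers u)) (h1 : ∀ f : G →* Multiplicative (ZMod 2), f u = 1)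
    (hm : ∀ i, 1 ≤ i → ∀ g : G, g⁻¹ * u ^ 2 ^ i * g ∈ S → g⁻¹ * u ^ 2 ^ i * g ∈ M)
    (hR : IsPGroup 2 R) (hRu : R ≤ centralizer {u}) :
    ∃ t : G, t⁻¹ * u * t ∈ M ∧ ∀ r ∈ R, t⁻¹ * r * t ∈ S := by
  classical
  have := Fintype.ofFinite (G ⧸ S)
  obtain ⟨ϕ, hϕ⟩ := exists_hom_of_relIndex_two hQi
  have hc := isCocycle_cosetCocycle ϕ
  have h2 : ∀ y : Multiplicative (ZMod 2), y = 1 ∨ y = Multiplicative.ofAdd 1 := by decide
  have htr : tr ϕ u = 1 := h1 _
  have cu : ∀ r : R, u * (r : G) = r * u := fun r => (mem_centralizer_singleton_iff.1 (hRu r.2)).symm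
  let Z : SubMulAction R (G ⧸ S) :=
    { carrier := {q | u • q = q ∧ cosetCocycle ϕ u q = 1}
      smul_mem' := fun r q hq => by
        have h3 : (r : G) * u * (r : G)⁻¹ = u := by rw [← cu, mul_inv_cancel_right]
        refine ⟨?_, ?_⟩
        · change u • (r : G) • q = (r : G) • q
          rw [← mul_smul, cu, mul_smul, hq.1]
        · change cosetCocycle ϕ u ((r : G) • q) = 1
          rw [← hq.2, ← hc.conj r hq.1, h3] }
  have hodd : ¬ 2 ∣ Nat.card Z := by
    intro hd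
    let σ : Multiplicative (ZMod 2) := Multiplicative.ofAdd 1
    have hσ2 : σ ^ 2 = 1 := by decide
    have e1 : ∏ q ∈ Finset.univ.filter (fun q : G ⧸ S => ¬ u • q = q), cosetCocycle ϕ u q = 1 := by
      refine TIE.prod_eq_one hc u _ (fun q hq => ?_) fun q hq => ?_
      · simp only [Finset.mem_filter, Finset.mem_univ, true_and] at hq ⊢
        exact fun e => hq (MulAction.injective u e)
      · induction q using QuotientGroup.induction_on with | H t => ?_
        have h5 := smul_mk_eq_iff.1 (MulAction.pow_period_smul u (t : G ⧸ S))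
        rw [cosetCocycle_mk ϕ h5]
        refine (hϕ ⟨_, h5⟩).1 ?_
        have hd := MulAction.period_dvd_orderOf u (t : G ⧸ S)
        obtain ⟨k, hk⟩ := isPGroup_zpowers_iff.1 hU
        rw [hk] at hd
        obtain ⟨i, -, e⟩ := (Nat.dvd_prime_pow Nat.prime_two).1 hd
        have h1 : MulAction.period u (t : G ⧸ S) ≠ 1 := fun e =>
          (Finset.mem_filter.1 hq).2 (MulAction.period_eq_one_iff.1 e)
        have hi1 : 1 ≤ i := by
          rcases i with _ | i
          · exact absurd e h1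
          · omega
        change t⁻¹ * u ^ MulAction.period u (t : G ⧸ S) * t ∈ M
        rw [e] at h5 ⊢
        exact hm i hi1 t h5
    have e2 := Finset.prod_filter_mul_prod_filter_not Finset.univ (fun q : G ⧸ S => u • q = q)
      (cosetCocycle ϕ u)
    rw [e1, mul_one, ← tr_apply, htr, ← Finset.prod_filter_mul_prod_filter_not _
      (fun q => cosetCocycle ϕ u q = 1), Finset.prod_eq_one fun q hq => (Finset.mem_filter.1 hq).2,
      one_mul, Finset.prod_congr rfl (g := fun _ => σ) fun q hq =>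
        (h2 _).resolve_left (Finset.mem_filter.1 hq).2, Finset.prod_const] at e2
    have e3 := Finset.card_filter_add_card_filter_not (s := Finset.univ.filter fun q : G ⧸ S => u • q = q)
      (fun q => cosetCocycle ϕ u q = 1)
    have e4 : ((Finset.univ.filter fun q : G ⧸ S => u • q = q).filter
        fun q => cosetCocycle ϕ u q = 1).card = Nat.card Z := by
      rw [Finset.filter_filter, ← Fintype.card_subtype, ← Nat.card_eq_fintype_card]
      rfl
    have e5 := hU.card_modEq_card_fixedPoints (G ⧸ S)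
    have e6 : Nat.card (MulAction.fixedPoints (zpowers u) (G ⧸ S)) =
        (Finset.univ.filter fun q : G ⧸ S => u • q = q).card := by
      rw [← Fintype.card_subtype, ← Nat.card_eq_fintype_card]
      refine Nat.card_congr (Equiv.subtypeEquivRight fun q => ⟨fun h => h ⟨u, mem_zpowers u⟩,
        fun h r => ?_⟩)
      obtain ⟨k, e⟩ := mem_zpowers_iff.1 r.2
      change (r : G) • q = q
      rw [← e]
      exact zpow_mem (MulAction.mem_stabilizer_iff.2 h) k
    have e7 : 2 ∣ ((Finset.univ.filter fun q : G ⧸ S => u • q = q).filter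
        fun q => ¬ cosetCocycle ϕ u q = 1).card := by
      by_contra hn
      obtain ⟨m, hm⟩ := Nat.odd_iff.2 (Nat.two_dvd_ne_zero.1 hn)
      rw [hm, pow_succ, pow_mul, hσ2, one_pow, one_mul] at e2
      exact absurd e2 (by decide)
    rw [e6, ← e3, e4] at e5
    exact hi ((Nat.modEq_zero_iff_dvd).1 (e5.trans ((Nat.modEq_zero_iff_dvd).2 (dvd_add hd e7))))
  obtain ⟨⟨q, hq1, hq2⟩, hq⟩ := hR.nonempty_fixed_point_of_prime_not_dvd_card Z hodd
  induction q using QuotientGroup.induction_on with | H t => ?_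
  have h5 := smul_mk_eq_iff.1 hq1
  refine ⟨t, ?_, fun r hr => smul_mk_eq_iff.1 (congrArg Subtype.val (hq ⟨r, hr⟩))⟩
  by_contra hn
  rw [cosetCocycle_mk ϕ h5, (hϕ ⟨_, h5⟩).2 hn] at hq2
  exact absurd hq2 (by decide)

/-- extremal Thompson transfer for a 2-element `u` no proper power of which is conjugate into `S \ M` -/
theorem tp {H S M : Subgroup G} (hS : IsSylowIn 2 S H) (hM : M ≤ S) (hi : M.relIndex S = 2) {u : G} (hu : u ∈ S)
    (h1 : ∀ f : H →* Multiplicative (ZMod 2), f ⟨u, hS.le hu⟩ = 1)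
    (hm : ∀ i, 1 ≤ i → ∀ g ∈ H, g * u ^ 2 ^ i * g⁻¹ ∈ S → g * u ^ 2 ^ i * g⁻¹ ∈ M) :
    ∃ g ∈ H, g * u * g⁻¹ ∈ M ∧ ∀ r ∈ S, Commute r u → g * r * g⁻¹ ∈ S := by

  have hSH := hS.le
  obtain ⟨t, t1, t2⟩ := trf_tp0 (G := H) (S := S.subgroupOf H) (M := M.subgroupOf H)
    (R := (S ⊓ centralizer {u}).subgroupOf H) (u := ⟨u, hSH hu⟩) hS.not_dvd
    (by rw [relIndex_subgroupOf hSH]; exact hi)
    ((hS.pgroup.comap_subtype (K := H)).to_le (zpowers_le.2 hu)) h1
    (fun i hi' g hg => by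
      have := hm i hi' (g : G)⁻¹ (inv_mem g.2) (by simpa [mem_subgroupOf] using hg)
      simpa [mem_subgroupOf] using this)
    (hS.pgroup.to_inf_left.comap_subtype)
    (fun r hr => mem_centralizer_singleton_iff.2 (Subtype.ext (mem_centralizer_singleton_iff.1 hr.2)))
  refine ⟨(t : G)⁻¹, inv_mem t.2, by simpa [mem_subgroupOf] using t1, fun r hr hc => ?_⟩
  have := t2 ⟨r, hSH hr⟩ ⟨hr, mem_centralizer_singleton_iff.2 hc⟩
  simpa [mem_subgroupOf] using this

/-- conjugate elements of a Sylow subgroup have a common extremal conjugate -/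
theorem extremal {S : Subgroup G} (hS : IsSylowIn 2 S ⊤) {x y : G} (hx : x ∈ S) (hy : y ∈ S) (h : IsConj x y) :
    ∃ v ∈ S, (∃ g : G, g * x * g⁻¹ = v ∧ ∀ r ∈ S, Commute r x → g * r * g⁻¹ ∈ S) ∧
      ∃ g : G, g * y * g⁻¹ = v ∧ ∀ r ∈ S, Commute r y → g * r * g⁻¹ ∈ S := by

  obtain ⟨k, hk⟩ := isConj_iff.1 h.symm
  obtain ⟨g, -, g', -, e, h1, h2⟩ := Semi4.ext2 hS (a := x) (b := y) (mem_top k) hk
    (P := S ⊓ W2.Cx x) hS.pgroup.to_inf_left le_top inf_le_right
    (Q := S ⊓ W2.Cx y) hS.pgroup.to_inf_left le_top inf_le_right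
  refine ⟨g * x * g⁻¹, h1 x ⟨hx, W2.mem_Cx.2 rfl⟩, ⟨g, rfl, fun r hr hc => h1 r ⟨hr, W2.mem_Cx.2 hc⟩⟩,
    g', e.symm, fun r hr hc => h2 r ⟨hr, W2.mem_Cx.2 hc⟩⟩

open CfsgLib.Transfer in
private theorem trf_par {S T : Subgroup G} {t : G} (hS : IsSylowIn 2 S ⊤)
    (hT : IsSylowIn 2 T (centralizer {t})) (ht : t ∈ T) (L : Finset G)
    (h1 : ∀ d ∈ L, d ∈ S ∧ IsConj t d ∧ Nat.card ↥(S ⊓ centralizer {d}) = Nat.card T)
    (h2 : ∀ d ∈ L, ∀ d' ∈ L, ∀ p ∈ S, p * d * p⁻¹ = d' → d = d')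
    (h3 : ∀ d ∈ S, IsConj t d → Nat.card ↥(S ⊓ centralizer {d}) = Nat.card T →
      ∃ d' ∈ L, ∃ p ∈ S, p * d' * p⁻¹ = d) :
    Odd L.card := by
  classical
  have := Fintype.ofFinite (G ⧸ S)
  -- `g⁻¹ t g = d`, `g⁻¹ T g ≤ S` forces `g⁻¹ T g = C_S(d)`
  have key : ∀ g : G, (∀ r ∈ T, g⁻¹ * r * g ∈ S) →
      cj g⁻¹ T = S ⊓ centralizer {g⁻¹ * t * g} := fun g hg => by
    have a1 := hT.cj g⁻¹
    rw [cj_centralizer_singleton, inv_inv] at a1
    refine (a1.eq_of_le hS.pgroup.to_inf_left (le_inf (cj_le_iff.2 fun x hx => ?_) a1.le)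
      inf_le_right).symm
    simpa using hg x hx
  have ex : ∀ d ∈ L, ∃ g : G, g⁻¹ * t * g = d ∧ ∀ r ∈ T, g⁻¹ * r * g ∈ S := fun d hd => by
    obtain ⟨-, b2, b3⟩ := h1 d hd
    obtain ⟨k, hk⟩ := isConj_iff.1 b2
    have a1 := hT.cj k
    rw [cj_centralizer_singleton, hk] at a1
    have a2 := a1.of_card_le (Q := S ⊓ centralizer {d}) hS.pgroup.to_inf_left inf_le_right
      (by rw [card_cj, b3])
    obtain ⟨c, hc, e⟩ := a1.exists_cj_eq a2
    refine ⟨(c * k)⁻¹, ?_, fun r hr => ?_⟩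
    · have : c * (k * t * k⁻¹) * c⁻¹ = d := by
        rw [hk, mem_centralizer_singleton_iff.1 hc, mul_inv_cancel_right]
      rw [← this]; group
    · rw [← cj_mul] at e
      have := (e.le (conj_mem_cj.2 hr)).1
      simpa using this
  choose! γ γ1 γ2 using ex
  set N : Subgroup G := centralizer {t} ⊓ normalizer (T : Set G) with hN
  have hTN : T ≤ N := le_inf hT.le le_normalizer
  let O : G → Finset (G ⧸ S) := fun d => orbF N (γ d : G ⧸ S)
  have hO : ∀ d ∈ L, Odd (O d).card := fun d hd => by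
    have e1 : (O d).card = (MulAction.stabilizer N (γ d : G ⧸ S)).index := by
      rw [MulAction.index_stabilizer, Set.ncard_eq_toFinset_card _ (Set.toFinite _)]
      rfl
    rw [e1, ← Nat.not_even_iff_odd, even_iff_two_dvd]
    intro hd2
    refine (hT.of_le hTN inf_le_left).not_dvd (hd2.trans (index_dvd_of_le fun x hx => ?_))
    exact smul_mk_eq_iff.2 (γ2 d hd x hx)
  have hU : L.biUnion O = Finset.univ.filter fun q : G ⧸ S => ∀ r ∈ T, r • q = q := by
    ext q
    simp only [Finset.mem_biUnion, Finset.mem_filter, Finset.mem_univ, true_and]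
    constructor
    · rintro ⟨d, hd, hq⟩ r hr
      obtain ⟨w, hw, rfl⟩ := mem_orbF.1 hq
      have := smul_mk_eq_iff.2 (γ2 d hd _ (conj_mem_of_mem_normalizer' hw.2 hr))
      rw [mul_smul, mul_smul, inv_smul_eq_iff] at this
      exact this
    · intro hq
      induction q using QuotientGroup.induction_on with | H g => ?_
      have hg : ∀ r ∈ T, g⁻¹ * r * g ∈ S := fun r hr => smul_mk_eq_iff.1 (hq r hr)
      obtain ⟨d, hd, p, hp, e⟩ := h3 _ (hg t ht) (isConj_iff.2 ⟨g⁻¹, by rw [inv_inv]⟩)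
        (by rw [← key g hg, card_cj])
      have hg' : ∀ r ∈ T, (g * p)⁻¹ * r * (g * p) ∈ S := fun r hr => by
        have := mul_mem (mul_mem (inv_mem hp) (hg r hr)) hp
        convert this using 1; group
      have e' : (g * p)⁻¹ * t * (g * p) = d := by
        have : d = p⁻¹ * (p * d * p⁻¹) * p := by group
        rw [this, e]; group
      refine ⟨d, hd, mem_orbF.2 ⟨g * p * (γ d)⁻¹, ⟨?_, ?_⟩, ?_⟩⟩
      · refine mem_centralizer_singleton_iff.2 ?_
        have a1 : t = (g * p) * d * (g * p)⁻¹ := by rw [← e']; group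
        have a2 : t = γ d * d * (γ d)⁻¹ := by rw [← congrArg (fun x => γ d * x * (γ d)⁻¹) (γ1 d hd)]; group
        calc g * p * (γ d)⁻¹ * t = g * p * (γ d)⁻¹ * (γ d * d * (γ d)⁻¹) := by rw [← a2]
          _ = (g * p) * d * (g * p)⁻¹ * (g * p * (γ d)⁻¹) := by group
          _ = _ := by rw [← a1]
      · refine mem_normalizer_iff_cj.2 ?_
        rw [cj_mul, key _ (γ2 d hd), γ1 d hd, ← e', ← key _ hg', cj_cj_inv]
      · rw [MulAction.Quotient.smul_mk, smul_eq_mul, inv_mul_cancel_right]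
        exact QuotientGroup.mk_mul_of_mem g hp
  have hdis : (L : Set G).PairwiseDisjoint O := fun d hd d' hd' hne => by
    refine Finset.disjoint_left.2 fun q hq hq' => hne ?_
    obtain ⟨w, hw, rfl⟩ := mem_orbF.1 hq
    obtain ⟨w', hw', e⟩ := mem_orbF.1 hq'
    rw [MulAction.Quotient.smul_mk, MulAction.Quotient.smul_mk, QuotientGroup.eq] at e
    refine h2 d hd d' hd' _ e ?_
    have a1 := mem_centralizer_singleton_iff.1 hw.1
    have a2 := mem_centralizer_singleton_iff.1 hw'.1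
    have a3 : w * t * w⁻¹ = t := by rw [a1, mul_inv_cancel_right]
    have a4 : w'⁻¹ * t * w' = t := by rw [mul_assoc, ← a2, inv_mul_cancel_left]
    have a5 : γ d * d * (γ d)⁻¹ = t := by
      rw [← congrArg (fun x => γ d * x * (γ d)⁻¹) (γ1 d hd)]; group
    calc _ = (γ d')⁻¹ * (w'⁻¹ * (w * (γ d * d * (γ d)⁻¹) * w⁻¹) * w') * γ d' := by
          simp only [smul_eq_mul]; group
      _ = d' := by rw [a5, a3, a4, γ1 d' hd']
  have e5 := hT.pgroup.card_modEq_card_fixedPoints (G ⧸ S)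
  have e6 : Nat.card (MulAction.fixedPoints T (G ⧸ S)) =
      (Finset.univ.filter fun q : G ⧸ S => ∀ r ∈ T, r • q = q).card := by
    rw [← Fintype.card_subtype, ← Nat.card_eq_fintype_card]
    exact Nat.card_congr (Equiv.subtypeEquivRight fun q => ⟨fun h r hr => h ⟨r, hr⟩, fun h r => h r r.2⟩)
  rw [e6, ← hU, Finset.card_biUnion hdis] at e5
  have e7 : Odd (∑ d ∈ L, (O d).card) := by
    rw [← Nat.not_even_iff_odd, even_iff_two_dvd]
    intro hd
    have := hS.not_dvd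
    rw [relIndex_top_right] at this
    exact this ((Nat.modEq_zero_iff_dvd).1 (e5.trans ((Nat.modEq_zero_iff_dvd).2 hd)))
  rw [Finset.odd_sum_iff_odd_card_odd, Finset.filter_true_of_mem hO] at e7
  exact e7

omit [Finite G] in
private theorem Fr.t_mem {md : ℕ} (F : Fr G md) : F.j 1 ∈ img (lvT md) F.j :=
  subset_closure ⟨1, by
    have := F.rep.wf.pw
    change 1 < sz (lvT md)
    rw [this]
    exact Nat.one_lt_two_pow (by omega), rfl⟩

/-- The number of `S`-classes of conjugates of `t` in `S` with a full centraliser is odd: `L` is a set of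
representatives of these classes. -/
theorem Fr.parity {md : ℕ} (F : Fr G md) {S : Subgroup G} (hS : IsSylowIn 2 S ⊤) (L : Finset G)
    (h1 : ∀ d ∈ L, d ∈ S ∧ F.D d ∧ Nat.card ↥(S ⊓ centralizer {d}) = sz (lvT md))
    (h2 : ∀ d ∈ L, ∀ d' ∈ L, ∀ p ∈ S, p * d * p⁻¹ = d' → d = d')
    (h3 : ∀ d ∈ S, F.D d → Nat.card ↥(S ⊓ centralizer {d}) = sz (lvT md) → ∃ d' ∈ L, ∃ p ∈ S, p * d' * p⁻¹ = d) :
    Odd L.card := by

  exact trf_par hS F.syl F.t_mem L (fun d hd => by rw [F.rep.card_img]; exact h1 d hd) h2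
    (fun d hd hD hc => h3 d hd hD (by rw [← F.rep.card_img]; exact hc))

end CfsgLib.L3E
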